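import Mathlib
import Cfsg.Agent.Fus.AbSylC

/-! Groups with abelian Sylow 2-intersections: non-normal essential subgroups have index two
in their normalizers. -/

set_option autoImplicit false

namespace Cfsg.Agent.Fus.AS

open Cfsg Subgroup Loc Loc.Am
open scoped commutatorElement

variable {G : Type*} [Group G] [Finite G] {S E E' E₀ E₁ : Subgroup G}

/-- The focal subgroup is all of `S`. -/
def Foc (S : Subgroup G) : Prop :=
  ∀ M : Subgroup G, (∀ x ∈ S, ∀ g, g * x * g⁻¹ ∈ S → x⁻¹ * (g * x * g⁻¹) ∈ M) → S ≤ M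

theorem AI.le_of_foc (H : AI S) (hF : Foc S) {M : Subgroup G}
    (hN : ∀ n ∈ normalizer (S : Set G), ∀ x ∈ S, x⁻¹ * (n * x * n⁻¹) ∈ M)
    (hE : ∀ E, Ess S E → ∀ l, Gen S E l → ∀ x ∈ E, x⁻¹ * (l * x * l⁻¹) ∈ M) : S ≤ M :=
  hF M fun _ hx _ hg => H.rel _ (Inv.Fz.equivalence_inv_mul_mem M) hN hE hx hg

namespace Pr

variable {h : Ess S E} {h' : Ess S E'} (P : Pr h h') (H : AI S)

include P H

theorem le_Nn (h2 : ¬ Two S E') : S ≤ normalizer (Nn S E : Set G) := by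
  by_contra hn
  obtain ⟨t, ht, h1, h3⟩ := exists_lt_normalizer (A := Nn S (Nn S E)) H.syl.isPGroup inf_le_left
    fun l => hn (l.trans inf_le_right)
  have ht' := le_normalizer ht
  by_cases l : Om (h.cj ht') ≤ Nn S E
  · refine h3 ⟨ht, cj_eq_self_iff.1 ?_⟩
    rw [cj_Nn ht']
    rcases P.eq_or H _ l with e | e
    · rw [e]
    · rw [e, P.nn]
  · refine h2 (Two.of_cj ht' (P.two_of_out H (P.cj ht') ?_ l))
    rw [← cj_Nn ht', ← cj_eq_of_mem_normalizer h1]
    exact cj_mono t (le_inf inf_le_left le_normalizer)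

theorem out' (hS : S ≤ normalizer (Nn S E : Set G)) (h₀ : Ess S E₀) (hne : ¬ Om h₀ ≤ Nn S E)
    {x : G} (hx : x ∈ Om h₀) (hx' : x ∈ Nn S E) : x ∈ centralizer (S : Set G) := by
  obtain ⟨y, hy, hy'⟩ := SetLike.not_le_iff_exists.1 hne
  exact centralizer_le (le_inf le_rfl hS : S ≤ Nn S (Nn S E))
    (P.out H ⟨h₀.le hy.1, hS (h₀.le hy.1)⟩ hy' hx' hx.2 (h₀.comm _ hy.1 _ hx.1))

theorem false_of_out (hS : S ≤ normalizer (Nn S E : Set G)) (h2 : ¬ Two S E')
    {h₀ : Ess S E₀} {h₁ : Ess S E₁} (Q : Pr h₀ h₁) (t₀ : Two S E₀) (n₀ : ¬ Om h₀ ≤ Nn S E)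
    (n₁ : ¬ Om h₁ ≤ Nn S E) : False := by
  obtain ⟨a, ha, ha'⟩ := SetLike.not_le_iff_exists.1 n₀
  have haS := h₀.le ha.1
  have hai := inv_eq_of_sq ha.2
  have hsw := P.swap H haS (hS haS) ha'
  have hsw' := P.swap' H haS (hS haS) ha'
  have hdec : ∀ x ∈ Om h₀, x ∈ centralizer (S : Set G) ∨ a * x ∈ centralizer (S : Set G) :=
    fun x hx => by
      by_cases hx' : x ∈ Nn S E
      · exact Or.inl (P.out' H hS h₀ n₀ hx hx')
      · exact Or.inr (P.out' H hS h₀ n₀ (mul_mem ha hx) (P.idx H ⟨haS, hS haS⟩ ha'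
          ⟨h₀.le hx.1, hS (h₀.le hx.1)⟩ hx'))
  have hca : ∀ s ∈ S, s * a = a * s → s ∈ E₀ := fun s hs hc => H.mem_of_cent h₀ hs fun x hx => by
    rcases hdec x hx with e | e
    · exact e s hs
    · have := e s hs
      rw [← mul_assoc, hc, mul_assoc, mul_assoc] at this
      exact mul_left_cancel this
  have hconj : ∀ w ∈ Om h, a * w * a⁻¹ ∈ Om h' := fun w hw =>
    ⟨hsw ▸ conj_mem_cj a hw.1, conj_sq hw.2⟩
  have key : ∀ w ∈ Om h, w ∉ E' → w * (a * w * a⁻¹) ∈ Nn S E₀ ∧ w * (a * w * a⁻¹) ∉ E₀ := by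
    intro w hw hw'
    have hw1 := hconj w hw
    have hw2 : a * w * a⁻¹ ∉ E := fun l => hw' (by
      rw [← hsw', mem_cj] at l
      simpa [mul_assoc] using l)
    have hc1 := P.comm_mem_Om hw hw1.1
    have hc2 := P.comm_ne H hw hw' (P.le' hw1.1) hw2
    set c := ⁅a * w * a⁻¹, w⁆ with hc
    have hcS : c ∈ S := h.le hc1.1
    have hwi := inv_eq_of_sq hw.2
    have hxS : w * (a * w * a⁻¹) ∈ S := mul_mem (h.le hw.1) (h'.le hw1.1)
    have e1 : c = a * w * a * w * a * w * a * w := by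
      rw [hc, commutatorElement_def, mul_inv_rev, mul_inv_rev, inv_inv, hai, hwi]; group
    have e2 : w * (a * w * a⁻¹) * a * (w * (a * w * a⁻¹))⁻¹ = c⁻¹ * a := by
      rw [e1]
      simp only [mul_inv_rev, hai, hwi]
      calc w * (a * w * a) * a * (a * (w * a) * w) = w * a * w * (a * a) * a * w * a * w := by group
        _ = w * a * w * a * w * a * w * (a * a) := by rw [ha.2]; group
        _ = _ := by group
    have e3 : c * a = a * c := by
      have : a * c * a = c⁻¹ := by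
        rw [e1]
        simp only [mul_inv_rev, hai, hwi]
        calc a * (a * w * a * w * a * w * a * w) * a = (a * a) * w * a * w * a * w * a * w * a := by
              group
          _ = _ := by rw [ha.2]; group
      rw [inv_eq_of_sq hc1.2] at this
      calc c * a = a * c * a * a := by rw [this]
        _ = a * c := by rw [mul_assoc, ha.2, mul_one]
    have hcE := hca c hcS e3
    refine ⟨⟨hxS, cj_eq_self_iff.1 (H.eq_of_Om_le (h₀.cj (le_normalizer hxS)) h₀ fun y hy => ?_)⟩,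
      fun l => hc2 ?_⟩
    · have hy' : (w * (a * w * a⁻¹))⁻¹ * y * (w * (a * w * a⁻¹)) ∈ Om h₀ :=
        ⟨mem_cj.1 hy.1, by simpa using conj_sq (g := (w * (a * w * a⁻¹))⁻¹) hy.2⟩
      generalize w * (a * w * a⁻¹) = x at *
      rcases hdec _ hy' with e | e
      · have := e x hxS
        rw [show y = x⁻¹ * y * x from by
          calc y = x * (x⁻¹ * y * x) * x⁻¹ := by group
            _ = _ := by rw [this]; group]
        exact hy'.1
      · have := e x hxS
        have e4 : y = (c⁻¹ * a)⁻¹ * (a * (x⁻¹ * y * x)) := by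
          rw [← e2]
          calc y = (x * a * x⁻¹)⁻¹ * (x * (a * (x⁻¹ * y * x))) * x⁻¹ := by group
            _ = _ := by rw [this]; group
        rw [e4]
        exact mul_mem (inv_mem (mul_mem (inv_mem hcE) ha.1)) (mul_mem ha.1 hy'.1)
    · rw [h₀.comm _ l a ha.1, mul_inv_cancel_right] at e2
      simpa using e2
  -- three elements
  obtain ⟨x, hx, hx', y, hy, hy', hxy⟩ : ∃ x ∈ Nn S E', x ∉ E' ∧ ∃ y ∈ Nn S E', y ∉ E' ∧
      x * y ∉ E' := by
    by_contra hc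
    push Not at hc
    exact h2 hc
  obtain ⟨v, hv, e, he, rfl⟩ := P.symm.dec H hx
  obtain ⟨w, hw, f, hf, rfl⟩ := P.symm.dec H hy
  have hv' : v ∉ E' := fun l => hx' (mul_mem l he)
  have hw' : w ∉ E' := fun l => hy' (mul_mem l hf)
  have hvw : v * w ∉ E' := fun l => hxy (by
    have := mul_mem (mul_mem l (conj_mem' (P.symm.le' hw.1).2 he)) hf
    simpa [mul_assoc] using this)
  obtain ⟨k1, k1'⟩ := key v hv hv'
  obtain ⟨k2, k2'⟩ := key w hw hw'
  obtain ⟨k3, k3'⟩ := key _ (mul_mem hv hw) hvw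
  have k4 := t₀ _ k1 k1' _ k2 k2'
  have hc1 := P.comm_mem_Om hw (hconj v hv).1
  have hc2 := P.comm_mem' hw.1 (hconj v hv).1
  set c := ⁅a * v * a⁻¹, w⁆ with hc
  have hcc := P.cent H hc1.1 hc2
  have e1 : v * (a * v * a⁻¹) * (w * (a * w * a⁻¹)) = c * (v * w * (a * (v * w) * a⁻¹)) := by
    calc v * (a * v * a⁻¹) * (w * (a * w * a⁻¹)) = v * c * (w * (a * (v * w) * a⁻¹)) := by
          rw [hc, commutatorElement_def]; group
      _ = _ := by rw [hcc v (h.le_Nn hv.1)]; group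
  have hcN : c ∈ Nn S E₀ := (mul_mem_cancel_right k3).1 (e1 ▸ mul_mem k1 k2)
  have hcE : c ∉ E₀ := fun l => k3' ((mul_mem_cancel_left l).1 (e1 ▸ k4))
  have := P.out' H hS h₁ n₁ ⟨(Q.invol H hcN hc1.2).resolve_left hcE, hc1.2⟩ (h.le_Nn hc1.1)
  exact hcE (h₀.cent c hcN.1 fun x hx => (this x (h₀.le hx)).symm)

end Pr

theorem AI.two (H : AI S) (hF : Foc S) (h : Ess S E) (hn : ¬ S ≤ normalizer (E : Set G)) :
    Two S E := by
  by_contra h2
  obtain ⟨s, hs, P⟩ := H.exists_pr h hn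
  have h2' : ¬ Two S (cj s E) := fun t => h2 (t.of_cj (le_normalizer hs))
  have hS := P.le_Nn H h2'
  have hout : ∀ {E₀ E₁} {h₀ : Ess S E₀} {h₁ : Ess S E₁}, Pr h₀ h₁ → ¬ Om h₀ ≤ Nn S E → Two S E₁ :=
    fun Q l => P.two_of_out H Q (le_inf inf_le_left (inf_le_left.trans hS)) l
  refine hn (((H.le_of_foc hF (M := Nn S E)) (fun n hn x hx => ?_) fun E₀ h₀ l hl x hx => ?_).trans
    inf_le_right)
  · have e : cj n (Nn S E) = Nn S E := by
      by_cases l : Om (h.cj hn) ≤ Nn S E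
      · rw [cj_Nn hn]
        rcases P.eq_or H _ l with e | e
        · rw [e]
        · rw [e, P.nn]
      · exact absurd (Two.of_cj hn (hout (P.cj hn) l)) h2'
    by_cases hx' : x ∈ Nn S E
    · exact mul_mem (inv_mem hx') (e ▸ conj_mem_cj n hx')
    · refine P.idx H (inv_mem ⟨hx, hS hx⟩) (mt inv_mem_iff.1 hx')
        ⟨conj_mem hn hx, hS (conj_mem hn hx)⟩ fun l => hx' ?_
      rw [← e, mem_cj] at l
      simpa [mul_assoc] using l
  · suffices l0 : E₀ ≤ Nn S E from l0 (mul_mem (inv_mem hx) (conj_mem hl.mem hx))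
    by_cases l : Om h₀ ≤ Nn S E
    · rcases P.eq_or H _ l with rfl | rfl
      · exact h.le_Nn
      · exact P.le'
    obtain ⟨t, ht, Q⟩ := H.exists_pr h₀ (P.not_normal H h₀ hn)
    have t₁ := hout Q l
    refine (P.false_of_out H hS h2' Q (t₁.of_cj (le_normalizer ht)) l fun l' => ?_).elim
    rcases P.eq_or H _ l' with e | e
    · exact h2 (e ▸ t₁)
    · exact h2' (e ▸ t₁)

end Cfsg.Agent.Fus.AS
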