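import Mathlib
import Cfsg.Agent.Fus.AbSylD
import Cfsg.Agent.Inv.Dihedral

/-! Groups with abelian Sylow 2-intersections: the dihedral case. -/

set_option autoImplicit false

namespace Cfsg.Agent.Fus.AS

open Cfsg Subgroup Loc Loc.Am
open scoped commutatorElement

variable {G : Type*} [Group G] {S E E' : Subgroup G} {u v u' v' : G}

/-- The data attached to an essential subgroup of index two in its normalizer. -/
structure Tw (S E : Subgroup G) (u v : G) : Prop where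
  ess : Ess S E
  u_mem : u ∈ E
  v_mem : v ∈ E
  uu : u * u = 1
  vv : v * v = 1
  u_ne : u ≠ 1
  ex : ∃ a ∈ Nn S E, a ∉ E
  act : ∀ a ∈ Nn S E, ∀ e ∈ E, a * e * a⁻¹ = e ∨ a * e * a⁻¹ = e * u
  mov : ∀ a ∈ Nn S E, a ∉ E → a * v * a⁻¹ = v * u
  nsq : ∀ e ∈ E, e * e ≠ u
  fus : ∀ K : Subgroup G, u ∈ K → v ∈ K → ∀ l, Gen S E l → ∀ x ∈ E, x⁻¹ * (l * x * l⁻¹) ∈ K
  vgen : ∃ l, Gen S E l ∧ ∃ x ∈ E, x⁻¹ * (l * x * l⁻¹) = v
  cen : ∀ z ∈ E, z ∈ centralizer (Nn S E : Set G) →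
    (∀ l, Gen S E l → l * z = z * l) ∨ ∀ l, Gen S E l → l * (z * u) = z * u * l

theorem conj_eq_iff {n x y : G} : n⁻¹ * x * n = y ↔ x = n * y * n⁻¹ := by
  constructor
  · rintro rfl; group
  · rintro rfl; group

theorem Tw.cj (T : Tw S E u v) {n : G} (hn : n ∈ normalizer (S : Set G)) :
    Tw S (cj n E) (n * u * n⁻¹) (n * v * n⁻¹) where
  ess := T.ess.cj hn
  u_mem := conj_mem_cj n T.u_mem
  v_mem := conj_mem_cj n T.v_mem
  uu := conj_sq T.uu
  vv := conj_sq T.vv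
  u_ne := fun e => T.u_ne (by simpa using e)
  ex := by
    obtain ⟨a, ha, ha'⟩ := T.ex
    exact ⟨_, conj_mem_Nn hn ha, fun l => ha' (by simpa [mul_assoc] using mem_cj.1 l)⟩
  act := by
    rintro a ha _ ⟨e, he, rfl⟩
    refine (T.act _ ((mem_Nn_cj hn).1 ha) e he).imp (fun h => ?_) fun h => ?_
    · calc a * (n * e * n⁻¹) * a⁻¹ = n * (n⁻¹ * a * n * e * (n⁻¹ * a * n)⁻¹) * n⁻¹ := by group
        _ = n * e * n⁻¹ := by rw [h]
    · calc a * (n * e * n⁻¹) * a⁻¹ = n * (n⁻¹ * a * n * e * (n⁻¹ * a * n)⁻¹) * n⁻¹ := by group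
        _ = n * e * n⁻¹ * (n * u * n⁻¹) := by rw [h]; group
  mov := fun a ha ha' => by
    have h := T.mov _ ((mem_Nn_cj hn).1 ha) (mt mem_cj.2 ha')
    calc a * (n * v * n⁻¹) * a⁻¹ = n * (n⁻¹ * a * n * v * (n⁻¹ * a * n)⁻¹) * n⁻¹ := by group
      _ = _ := by rw [h]; group
  nsq := by
    rintro _ ⟨e, he, rfl⟩ h
    refine T.nsq e he ((MulAut.conj n).injective ?_)
    rw [map_mul]; exact h
  fus := by
    rintro K hu hv l hl _ ⟨x, hx, rfl⟩
    have := T.fus (Am.cj n⁻¹ K) (mem_cj.2 (by simpa using hu)) (mem_cj.2 (by simpa using hv)) _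
      (hl.of_cj hn) x hx
    simpa [mul_assoc] using mem_cj.1 this
  vgen := by
    obtain ⟨l, hl, x, hx, e⟩ := T.vgen
    exact ⟨_, hl.cj hn, _, conj_mem_cj n hx, by rw [← e]; group⟩
  cen := by
    rintro _ ⟨z, hz, rfl⟩ hc
    rw [← cj_Nn hn, ← cj_centralizer] at hc
    refine (T.cen z hz (by simpa [mul_assoc] using mem_cj.1 hc)).imp (fun h l hl => ?_)
      fun h l hl => ?_
    · have := h _ (hl.of_cj hn)
      calc l * (n * z * n⁻¹) = n * (n⁻¹ * l * n * z) * n⁻¹ := by group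
        _ = n * z * n⁻¹ * l := by rw [this]; group
    · have := h _ (hl.of_cj hn)
      calc l * (n * z * n⁻¹ * (n * u * n⁻¹)) = n * (n⁻¹ * l * n * (z * u)) * n⁻¹ := by group
        _ = n * z * n⁻¹ * (n * u * n⁻¹) * l := by rw [this]; group

theorem Tw.fix_u (T : Tw S E u v) {a : G} (ha : a ∈ Nn S E) : a * u * a⁻¹ = u :=
  (T.act a ha u T.u_mem).resolve_right fun e => T.u_ne (by simpa [T.uu] using e)

theorem Tw.mul (T : Tw S E u v) : Tw S E u (v * u) := by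
  obtain ⟨a, ha, ha'⟩ := T.ex
  have := T.cj (le_normalizer ha.1)
  rwa [cj_eq_of_mem_normalizer ha.2, T.fix_u ha, T.mov a ha ha'] at this

theorem Tw.u_eq (T : Tw S E u v) (T' : Tw S E u' v') : u = u' := by
  obtain ⟨a, ha, ha'⟩ := T.ex
  have h := T.mov a ha ha'
  rcases T'.act a ha v T.v_mem with e | e
  · exact absurd (by simpa [e] using h) T.u_ne
  · exact mul_left_cancel (h.symm.trans e)

theorem Tw.v_eq (T : Tw S E u v) (T' : Tw S E u v') : v' = v ∨ v' = v * u := by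
  have huv := T.ess.comm u T.u_mem v T.v_mem
  let W : Subgroup G :=
    { carrier := {x | x = 1 ∨ x = u ∨ x = v ∨ x = v * u}
      one_mem' := Or.inl rfl
      mul_mem' := by
        have h1 : u * (v * u) = v := by rw [← huv, ← mul_assoc, T.uu, one_mul]
        have h2 : v * (v * u) = u := by rw [← mul_assoc, T.vv, one_mul]
        have h3 : v * u * u = v := by rw [mul_assoc, T.uu, mul_one]
        have h4 : v * u * v = u := by rw [mul_assoc, huv, h2]
        have h5 : v * u * (v * u) = 1 := by rw [← mul_assoc, h4, T.uu]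
        rintro _ _ (rfl | rfl | rfl | rfl) (rfl | rfl | rfl | rfl) <;>
          simp [T.uu, T.vv, huv, h1, h2, h3, h4, h5]
      inv_mem' := by
        rintro _ (rfl | rfl | rfl | rfl) <;>
          simp [inv_eq_of_sq T.uu, inv_eq_of_sq T.vv, huv] }
  obtain ⟨l, hl, x, hx, e⟩ := T'.vgen
  obtain ⟨a, ha, ha'⟩ := T.ex
  have h := T'.mov a ha ha'
  rcases e ▸ T.fus W (Or.inr (Or.inl rfl)) (Or.inr (Or.inr (Or.inl rfl))) l hl x hx with
    e | e | e | e
  · exact absurd (by simpa [e] using h.symm) T.u_ne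
  · rw [e, T.fix_u ha, T.uu] at h
    exact absurd h T.u_ne
  · exact Or.inl e
  · exact Or.inr e

variable [Finite G]

theorem Tw.mem_of_comm (T : Tw S E u v) (H : AI S) {s : G} (hs : s ∈ S) (hc : s * v = v * s) :
    s ∈ E := by
  by_contra hsE
  obtain ⟨b, hb, hb1, hb2⟩ := exists_lt_normalizer (A := E) (B := S ⊓ centralizer {v})
    (H.syl.isPGroup.to_le inf_le_left) (le_inf T.ess.le fun x hx =>
      mem_centralizer_singleton_iff.2 (T.ess.comm x hx v T.v_mem))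
    fun l => hsE (l ⟨hs, mem_centralizer_singleton_iff.2 hc⟩)
  have := T.mov b ⟨hb.1, hb1⟩ hb2
  rw [mem_centralizer_singleton_iff.1 hb.2, mul_inv_cancel_right] at this
  exact T.u_ne (by simpa using this)

theorem Tw.eq_of_comm (T : Tw S E u v) (T' : Tw S E' u' v') (H : AI S) (h : v' ∈ E) : E = E' := by
  have l1 : E ≤ E' := fun x hx => T'.mem_of_comm H (T.ess.le hx) (T.ess.comm x hx v' h)
  exact le_antisymm l1 fun x hx => T.ess.cent x (T'.ess.le hx) fun y hy =>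
    T'.ess.comm x hx y (l1 hy)

theorem Pr.exists_tw {h : Ess S E} {h' : Ess S E'} (P : Pr h h') (H : AI S) (t : Two S E)
    (t' : Two S E') : ∃ u v, Tw S E u v := by
  obtain ⟨k, hk⟩ := P.ff H
  obtain ⟨a, ha, ha'⟩ := SetLike.not_le_iff_exists.1 (P.not_le H)
  obtain ⟨w, hw, hw'⟩ := SetLike.not_le_iff_exists.1 (P.symm.not_le H)
  have haN := P.le' ha.1
  have hu := P.comm_mem_Om hw ha.1
  have huc := P.cent H hu.1 (P.comm_mem' hw.1 ha.1)
  have hwc : w ∉ centralizer (Nn S E : Set G) := fun l => hw' (P.mem_of_cent (h.le hw.1) l)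
  have hu1 := mt (hk.sep a haN ha' w hw) hwc
  have hu2 := mt (hk.sep' a haN ha' w hw) hwc
  have haw : a * w * a⁻¹ = w * ⁅a, w⁆ := by
    rw [h.comm w hw.1 _ hu.1, commutatorElement_def]; group
  generalize ⁅a, w⁆ = u at *
  -- every element of `N \ E` acts like `a`
  have hact : ∀ b ∈ Nn S E, b ∉ E → ∀ e ∈ E, b * e * b⁻¹ = a * e * a⁻¹ := fun b hb hb' e he => by
    have := h.comm _ (t _ (inv_mem haN) (mt inv_mem_iff.1 ha') b hb hb') e he
    calc b * e * b⁻¹ = a * (a⁻¹ * b * e) * b⁻¹ := by group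
      _ = _ := by rw [this]; group
  have hfix : ∀ e ∈ E, a * e * a⁻¹ = e → e ∈ centralizer (Nn S E : Set G) := fun e he h1 b hb => by
    by_cases hb' : b ∈ E
    · exact h.comm b hb' e he
    · rw [← hact b hb hb' e he] at h1
      exact mul_inv_eq_iff_eq_mul.1 h1
  have hact' : ∀ e ∈ E, a * e * a⁻¹ = e ∨ a * e * a⁻¹ = e * u := fun e he => by
    by_cases he' : e ∈ E'
    · exact Or.inl (mul_inv_eq_iff_eq_mul.2 (P.cent H he he' a haN))
    · have h1 := t' _ (inv_mem (P.symm.le' hw.1)) (mt inv_mem_iff.1 hw') e (P.symm.le' he) he'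
      have h2 := P.cent H (mul_mem (inv_mem hw.1) he) h1 a haN
      refine Or.inr ?_
      calc a * e * a⁻¹ = a * w * a⁻¹ * (a * (w⁻¹ * e)) * a⁻¹ := by group
        _ = w * (u * (w⁻¹ * e)) := by rw [h2, haw]; group
        _ = e * u := by rw [h.comm u hu.1 _ (mul_mem (inv_mem hw.1) he)]; group
  have hact'' : ∀ b ∈ Nn S E, ∀ e ∈ E, b * e * b⁻¹ = e ∨ b * e * b⁻¹ = e * u := fun b hb e he => by
    by_cases hb' : b ∈ E
    · exact Or.inl (mul_inv_eq_iff_eq_mul.2 (h.comm b hb' e he))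
    · rw [hact b hb hb' e he]; exact hact' e he
  have hv : k * u * k⁻¹ ∈ Om h := conj_mem (norm_le_Om h hk.mem) hu
  refine ⟨u, k * u * k⁻¹, h, hu.1, hv.1, hu.2, hv.2, fun e => hu1 (e ▸ one_mem _), ⟨a, haN, ha'⟩,
    hact'', fun b hb hb' => ?_, fun e he e' => hu1 (e' ▸ P.sq_cent' H he hk.mem),
    fun K huK hvK l hl x hx => ?_, ⟨k * a * k⁻¹, ⟨k, hk.mem, a, haN, rfl⟩, k * w * k⁻¹,
      conj_mem hk.mem hw.1, ?_⟩, fun z hz hzc => ?_⟩
  · rw [hact b hb hb' _ hv.1]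
    refine (hact' _ hv.1).resolve_left fun e => hu2 ?_
    rw [← cj_centralizer, mem_cj, inv_inv]
    exact hfix _ hv.1 e
  · let Q : Subgroup G :=
      { carrier := {g | g ∈ normalizer (E : Set G) ∧ ∀ x ∈ E, x⁻¹ * (g * x * g⁻¹) ∈ K}
        one_mem' := ⟨one_mem _, fun x _ => by simp⟩
        mul_mem' := fun {g₁ g₂} h1 h2 => ⟨mul_mem h1.1 h2.1, fun x hx => by
          have := mul_mem (h2.2 x hx) (h1.2 _ (conj_mem h2.1 hx))
          simpa [mul_assoc] using this⟩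
        inv_mem' := fun {g} h1 => ⟨inv_mem h1.1, fun x hx => by
          have := inv_mem (h1.2 _ (conj_mem' h1.1 hx))
          simpa [mul_assoc] using this⟩ }
    refine (hk.gen Q (fun b hb => ⟨hb.2, fun x hx => ?_⟩) ?_ (fun c hc => ⟨hc.1, fun x hx => ?_⟩)
      l hl).2 x hx
    · rcases hact'' b hb x hx with e | e <;> simp [e, huK]
    · rintro _ ⟨b, hb, rfl⟩
      refine ⟨mul_mem (mul_mem hk.mem hb.2) (inv_mem hk.mem), fun x hx => ?_⟩
      have e0 : x⁻¹ * (k * b * k⁻¹ * x * (k * b * k⁻¹)⁻¹) =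
          k * ((k⁻¹ * x * k)⁻¹ * (b * (k⁻¹ * x * k) * b⁻¹)) * k⁻¹ := by group
      change x⁻¹ * (k * b * k⁻¹ * x * (k * b * k⁻¹)⁻¹) ∈ K
      rcases hact'' b hb _ (conj_mem' hk.mem hx) with e | e
      · rw [e0, e, inv_mul_cancel, mul_one, mul_inv_cancel]; exact one_mem _
      · rw [e0, e, inv_mul_cancel_left]; exact hvK
    · rw [← hc.2 x hx]; simp
  · calc (k * w * k⁻¹)⁻¹ * (k * a * k⁻¹ * (k * w * k⁻¹) * (k * a * k⁻¹)⁻¹)
        = k * (w⁻¹ * (a * w * a⁻¹)) * k⁻¹ := by group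
      _ = _ := by rw [haw]; group
  · have key : ∀ y ∈ E, y ∈ centralizer (Nn S E : Set G) →
        a * (k⁻¹ * y * k) * a⁻¹ = k⁻¹ * y * k → ∀ l, Gen S E l → l * y = y * l :=
      fun y hy h1 h2 l hl => mem_centralizer_singleton_iff.1 (hk.gen (centralizer {y})
        (fun b hb => mem_centralizer_singleton_iff.2 (h1 b hb))
        (fun b hb => mem_centralizer_singleton_iff.2 (by
          have : y ∈ centralizer (Am.cj k (Nn S E) : Set G) := by
            rw [← cj_centralizer, mem_cj]; exact hfix _ (conj_mem' hk.mem hy) h2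
          exact this b hb))
        (fun c hc => mem_centralizer_singleton_iff.2 (hc.2 y hy).symm) l hl)
    rcases hact' _ (conj_mem' hk.mem hz) with e | e
    · exact Or.inl (key z hz hzc e)
    · refine Or.inr (key _ (mul_mem hz hu.1) (mul_mem hzc huc) ?_)
      have h1 := conj_mem' hk.mem hu.1
      have e' : a * (k⁻¹ * u * k) * a⁻¹ = k⁻¹ * u * k * u :=
        (hact' _ h1).resolve_left fun e => hu1 (by
          rw [← cj_centralizer, mem_cj]; exact hfix _ h1 e)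
      calc a * (k⁻¹ * (z * u) * k) * a⁻¹
          = a * (k⁻¹ * z * k) * a⁻¹ * (a * (k⁻¹ * u * k) * a⁻¹) := by group
        _ = k⁻¹ * z * k * (u * (k⁻¹ * u * k) * u) := by rw [e, e']; group
        _ = _ := by rw [h.comm u hu.1 _ h1, mul_assoc _ u u, hu.2]; group

theorem AI.exists_tw (H : AI S) (hF : Foc S) (h : Ess S E) (hn : ¬ S ≤ normalizer (E : Set G)) :
    ∃ u v, Tw S E u v := by
  obtain ⟨s, hs, P⟩ := H.exists_pr h hn
  exact P.exists_tw H (H.two hF h hn) ((H.two hF h hn).cj (le_normalizer hs))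

/-- Two involutions of the distinguished class. -/
theorem Tw.pair (T : Tw S E u v) (T' : Tw S E' u' v') (H : AI S) (hne : E ≠ E') :
    ∃ j : ℕ, orderOf (v * v') = 2 ^ (j + 2) ∧ (v * v') ^ 2 ^ j * (v * v') ^ 2 ^ j = u := by
  obtain ⟨k, hk⟩ := (IsPGroup.iff_orderOf.1 H.syl.isPGroup)
    ⟨v * v', mul_mem (T.ess.le T.v_mem) (T'.ess.le T'.v_mem)⟩
  rw [← orderOf_coe] at hk
  change orderOf (v * v') = _ at hk
  set x := v * v' with hx
  have hxS : x ∈ S := mul_mem (T.ess.le T.v_mem) (T'.ess.le T'.v_mem)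
  have hvi := inv_eq_of_sq T.vv
  have hinv : v * x * v⁻¹ = x⁻¹ := by
    rw [hx, mul_inv_rev, hvi, inv_eq_of_sq T'.vv, ← mul_assoc, T.vv, one_mul]
  have hinv' : ∀ m : ℕ, v * x ^ m * v⁻¹ = (x ^ m)⁻¹ := fun m => by
    rw [← conj_pow, hinv, inv_pow]
  have h2 : ¬ x ^ 2 = 1 := fun e => hne (T.eq_of_comm T' H (T.mem_of_comm H (T'.ess.le T'.v_mem) (by
    rw [pow_two] at e
    rw [← hx, ← inv_eq_of_sq e, hx, mul_inv_rev, hvi, inv_eq_of_sq T'.vv])))
  obtain ⟨j, rfl⟩ : ∃ j, k = j + 2 := by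
    refine ⟨k - 2, ?_⟩
    by_contra hc
    refine h2 (orderOf_dvd_iff_pow_eq_one.1 (hk ▸ ?_))
    have : k ≤ 1 := by omega
    simpa using pow_dvd_pow 2 this
  refine ⟨j, hk, ?_⟩
  set r := x ^ 2 ^ j with hr
  have hr4 : r * r * (r * r) = 1 := by
    rw [hr, ← pow_add, ← pow_add, ← pow_orderOf_eq_one x, hk]; congr 1; ring
  have hr2 : r * r ≠ 1 := fun e => by
    rw [hr, ← pow_add] at e
    have := Nat.le_of_dvd (by positivity) (orderOf_dvd_of_pow_eq_one e)
    rw [hk, pow_add] at this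
    have : 0 < 2 ^ j := by positivity
    omega
  have hvr : v * r * v⁻¹ = r⁻¹ := hinv' _
  have hrS : r ∈ S := pow_mem hxS _
  have e1 : r * v * r⁻¹ = v * (r * r) := by
    have hvr' : v⁻¹ * r * v = r⁻¹ := by rw [← hvr, hvi]
    calc r * v * r⁻¹ = v * (v⁻¹ * r * v) * r⁻¹ := by group
      _ = v * (r * r)⁻¹ := by rw [hvr']; group
      _ = _ := by rw [inv_eq_of_sq hr4]
  have hy : r * r ∈ E := T.mem_of_comm H (mul_mem hrS hrS) (by
    calc r * r * v = (r * r)⁻¹ * v := by rw [inv_eq_of_sq hr4]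
      _ = v * r * v⁻¹ * (v * r * v⁻¹) * v := by rw [hvr]; group
      _ = _ := by group)
  have hrN : r ∈ Nn S E := ⟨hrS, cj_eq_self_iff.1 (T.eq_of_comm (T.cj (le_normalizer hrS)) H
    (e1 ▸ mul_mem T.v_mem hy)).symm⟩
  have hrE : r ∉ E := fun l => hr2 (by
    rw [T.ess.comm r l v T.v_mem, mul_inv_cancel_right] at e1
    simpa using e1)
  exact mul_left_cancel (e1.symm.trans (T.mov r hrN hrE))

end Cfsg.Agent.Fus.AS
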