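import Mathlib
import Cfsg.Agent.Fus.AbSylE
import Cfsg.Agent.GT.PGroupFrattini

/-! Groups with abelian Sylow 2-intersections: conclusion. -/

set_option autoImplicit false

namespace Cfsg.Agent.Fus.AS

open Cfsg Subgroup Loc Loc.Am Cfsg.Agent.GT
open scoped commutatorElement

variable {G : Type*} [Group G] [Finite G] {S E E' : Subgroup G} {u v u' v' : G}

theorem le_of_le_sup_comm {T Y : Subgroup G} (hT : IsPGroup 2 T) (hY : Y ≤ T)
    (h : T ≤ Y ⊔ ⁅T, T⁆) : T ≤ Y := by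
  have h1 : Y.subgroupOf T ⊔ frattini T = ⊤ := by
    refine eq_top_iff.2 fun x _ => ?_
    have h2 : Y ⊔ ⁅T, T⁆ ≤ (Y.subgroupOf T ⊔ frattini T).map T.subtype := by
      refine sup_le (fun y hy => ⟨⟨y, hY hy⟩, mem_sup_left hy, rfl⟩) ?_
      refine (commutator_le.2 fun a ha b hb => ⟨⁅(⟨a, ha⟩ : T), ⟨b, hb⟩⁆, mem_sup_right ?_, rfl⟩)
      exact PG.commutator_le_frattini hT (commutator_mem_commutator trivial trivial)
    obtain ⟨y, hy, e⟩ := h2 (h x.2)
    rwa [← Subtype.ext e]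
  have := frattini_nongenerating h1
  exact fun x hx => show (⟨x, hx⟩ : T) ∈ Y.subgroupOf T from this ▸ trivial

theorem exists_mul_odd (hS : IsSylowOf 2 S ⊤) {g : G} (hg : g ∈ normalizer (S : Set G)) :
    ∃ s ∈ S, ∃ k ∈ normalizer (S : Set G), Odd (orderOf k) ∧ g = s * k := by
  obtain ⟨k, m, hm, e⟩ := Nat.exists_eq_two_pow_mul_odd (orderOf_pos g).ne'
  have hco : (2 ^ k).Coprime m := (Nat.coprime_two_left.2 hm).pow_left k
  obtain ⟨a, b, hab⟩ : ∃ a b : ℤ, a * (2 ^ k : ℕ) + b * m = 1 := Nat.isCoprime_iff_coprime.2 hco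
  have h1 : g ^ m ∈ S := by
    refine hS.le_of_le_normalizer (R := zpowers (g ^ m)) (Inv.SE.isPGroup_zpowers (k := k) ?_) le_top
      (zpowers_le.2 (pow_mem hg m)) (mem_zpowers _)
    rw [orderOf_pow' _ hm.pos.ne', e, Nat.gcd_mul_left_left, Nat.mul_div_cancel _ hm.pos]
  refine ⟨(g ^ m) ^ b, zpow_mem h1 b, (g ^ 2 ^ k) ^ a, zpow_mem (pow_mem hg _) a, ?_, ?_⟩
  · refine hm.of_dvd_nat (orderOf_dvd_of_pow_eq_one ?_)
    rw [← zpow_natCast, ← zpow_mul, mul_comm a, zpow_mul, zpow_natCast, ← pow_mul, ← e,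
      pow_orderOf_eq_one, one_zpow]
  · rw [← zpow_natCast, ← zpow_natCast, ← zpow_mul, ← zpow_mul, ← zpow_add]
    conv_lhs => rw [← zpow_one g, ← hab]
    congr 1; ring

theorem Tw.u_eq' (T : Tw S E u v) (T' : Tw S E' u' v') (H : AI S) : u = u' := by
  by_cases hne : E = E'
  · subst hne; exact T.u_eq T'
  obtain ⟨i, hi, e⟩ := T.pair T' H hne
  obtain ⟨j, hj, e'⟩ := T'.pair T H (Ne.symm hne)
  have h1 : v' * v = (v * v')⁻¹ := by rw [mul_inv_rev, inv_eq_of_sq T.vv, inv_eq_of_sq T'.vv]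
  rw [h1, orderOf_inv, hi] at hj
  obtain rfl : i = j := by simpa using hj
  rw [h1, inv_pow, ← mul_inv_rev, e, inv_eq_of_sq T.uu] at e'
  exact e'

/-- The distinguished class of involutions. -/
def Cl (S : Subgroup G) (u v : G) : Prop := ∃ E, Tw S E u v

theorem Cl.conj (h : Cl S u v) (H : AI S) {n : G} (hn : n ∈ normalizer (S : Set G)) :
    Cl S u (n * v * n⁻¹) := by
  obtain ⟨E, T⟩ := h
  have T' := T.cj hn
  rw [← T.u_eq' T' H] at T'
  exact ⟨_, T'⟩

omit [Finite G] in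
theorem Cl.mem (h : Cl S u v) : v ∈ S := h.choose_spec.ess.le h.choose_spec.v_mem

omit [Finite G] in
theorem Cl.sq (h : Cl S u v) : v * v = 1 := h.choose_spec.vv

theorem Cl.mul_pow (H : AI S) {w : G} (h : Cl S u v) (h' : Cl S u w) (i : ℕ) :
    Cl S u (v * (v * w) ^ i) := by
  have hinv : ∀ m : ℕ, ((v * w) ^ m)⁻¹ = v * (v * w) ^ m * v⁻¹ := fun m => by
    rw [← conj_pow, ← inv_pow, mul_inv_rev, inv_eq_of_sq h.sq, inv_eq_of_sq h'.sq, ← mul_assoc,
      h.sq, one_mul]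
  have hx := fun m : ℕ => inv_mem (le_normalizer (pow_mem (mul_mem h.mem h'.mem) m))
  obtain ⟨j, rfl | rfl⟩ := Nat.even_or_odd' i
  · convert h.conj H (hx j) using 1
    rw [inv_inv, hinv, two_mul, pow_add]; group
  · convert h'.conj H (hx j) using 1
    rw [inv_inv, hinv, show w = v * (v * w) by rw [← mul_assoc, h.sq, one_mul],
      show v * (v * (v * w)) = v * w by rw [← mul_assoc, h.sq, one_mul]]
    generalize v * w = x
    group

theorem Tw.mem_zpowers (T : Tw S E u v) (H : AI S) {w : G} (hw : Cl S u w)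
    (hu : u ∈ zpowers (v * w)) (hmax : ∀ y, Cl S u y → orderOf (v * y) ≤ orderOf (v * w)) :
    ∀ y, Cl S u y → v * y ∈ zpowers (v * w) := by
  have hv : Cl S u v := ⟨E, T⟩
  suffices ∀ n y, Cl S u y → orderOf (v * y) = n → v * y ∈ zpowers (v * w) from
    fun y hy => this _ y hy rfl
  intro n
  induction n using Nat.strong_induction_on with
  | _ n ih =>
  intro y hy hn
  by_cases h1 : v * y = 1
  · rw [h1]; exact one_mem _
  have hyi := inv_eq_of_sq hy.sq
  have hvi := inv_eq_of_sq T.vv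
  have e0 : v * (y * v * y⁻¹) = (v * y) ^ 2 := by rw [hyi, pow_two]; group
  have hlt : orderOf ((v * y) ^ 2) < orderOf (v * y) := by
    obtain ⟨k, hk⟩ := (IsPGroup.iff_orderOf.1 H.syl.isPGroup) ⟨v * y, mul_mem hv.mem hy.mem⟩
    rw [← orderOf_coe] at hk
    change orderOf (v * y) = _ at hk
    obtain _ | k := k
    · exact absurd (orderOf_eq_one_iff.1 hk) h1
    · rw [orderOf_pow' _ two_ne_zero, hk, pow_succ, Nat.gcd_mul_left_left]
      have : 0 < 2 ^ k := by positivity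
      omega
  have h2 := ih _ (hn ▸ hlt) _ (hv.conj H (le_normalizer hy.mem)) (by rw [e0])
  rw [e0] at h2
  obtain ⟨m, hm⟩ := (mem_powers_iff_mem_zpowers.2 h2)
  change (v * w) ^ m = _ at hm
  obtain ⟨j, rfl | rfl⟩ := Nat.even_or_odd' m
  swap
  · obtain ⟨k, hk⟩ := (IsPGroup.iff_orderOf.1 H.syl.isPGroup) ⟨v * w, mul_mem hv.mem hw.mem⟩
    rw [← orderOf_coe] at hk
    change orderOf (v * w) = _ at hk
    have : orderOf ((v * w) ^ (2 * j + 1)) = orderOf (v * w) := Nat.Coprime.orderOf_pow (by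
      rw [hk]; exact (Nat.coprime_two_left.2 (odd_two_mul_add_one j)).pow_left k)
    have := hmax y hy
    rw [← hm] at hlt
    omega
  have hz := hv.mul_pow H hw j
  have hzi := inv_eq_of_sq hz.sq
  have hx : (v * w) ^ j ∈ zpowers (v * w) := pow_mem (Subgroup.mem_zpowers _) j
  rw [mul_comm, pow_mul] at hm
  generalize (v * w) ^ j = r at *
  have e1 : v * r * v * (v * r)⁻¹ = y * v * y⁻¹ := by
    rw [hzi]
    refine mul_left_cancel (a := v) ?_
    rw [e0, ← hm]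
    calc v * (v * r * v * (v * r)) = (v * v) * r * (v * v) * r := by group
      _ = _ := by rw [T.vv, pow_two]; group
  have h3 : y * (v * r) ∈ E := T.mem_of_comm H (mul_mem hy.mem hz.mem) (by
    calc y * (v * r) * v = y * (v * r * v * (v * r)⁻¹) * (v * r) := by group
      _ = y * (y * v * y⁻¹) * (v * r) := by rw [e1]
      _ = (y * y) * v * (y * (v * r)) := by rw [hyi]; group
      _ = _ := by rw [hy.sq, one_mul])
  obtain ⟨E₁, T₁⟩ := hy
  obtain ⟨E₂, T₂⟩ := hz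
  by_cases hne : E₂ = E₁
  · subst hne
    rcases T₂.v_eq T₁ with e | e
    · rw [e, ← mul_assoc, T.vv, one_mul]; exact hx
    · rw [e, ← mul_assoc, ← mul_assoc, T.vv, one_mul]; exact mul_mem hx hu
  · obtain ⟨i, -, e⟩ := T₁.pair T₂ H (Ne.symm hne)
    exact absurd e (T.nsq _ (pow_mem h3 _))

/-- No nontrivial strongly closed abelian subgroup. -/
def NoSC (S : Subgroup G) : Prop :=
  ∀ A : Subgroup G, IsStronglyClosed A S → (∀ x ∈ A, ∀ y ∈ A, x * y = y * x) → A = ⊥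

theorem AI.eq_bot (H : AI S) (hC : NoSC S) {A : Subgroup G} (hA : A ≤ S)
    (hc : ∀ x ∈ A, ∀ y ∈ A, x * y = y * x) (hN : ∀ n ∈ normalizer (S : Set G), ∀ x ∈ A, n * x * n⁻¹ ∈ A)
    (hE : ∀ E, Ess S E → ∀ l, Gen S E l → ∀ x ∈ E, (x ∈ A ↔ l * x * l⁻¹ ∈ A)) : A = ⊥ :=
  hC A ⟨hA, fun _ hx _ hg => (H.rel (fun x y => x ∈ A ↔ y ∈ A)
    ⟨fun _ => Iff.rfl, Iff.symm, Iff.trans⟩ (fun n hn x _ => ⟨hN n hn x, fun h => by
      simpa [mul_assoc] using hN _ (inv_mem hn) _ h⟩) hE (hA hx) hg).1 hx⟩ hc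

theorem AI.dihedral (H : AI S) (hF : Foc S) (hC : NoSC S) (h : Ess S E)
    (hall : ∀ E, Ess S E → ¬ S ≤ normalizer (E : Set G)) :
    ∃ m, 2 ≤ m ∧ Nonempty (S ≃* DihedralGroup m) := by
  obtain ⟨u, v, T⟩ := H.exists_tw hF h (hall E h)
  have hv : Cl S u v := ⟨E, T⟩
  have hTw : ∀ E', Ess S E' → ∃ v', Tw S E' u v' := fun E' h' => by
    obtain ⟨u', v', T'⟩ := H.exists_tw hF h' (hall E' h')
    exact ⟨v', (T.u_eq' T' H) ▸ T'⟩
  obtain ⟨w, hw, hmax⟩ := Set.exists_max_image {y | Cl S u y} (fun y => orderOf (v * y))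
    (Set.toFinite _) ⟨v, hv⟩
  have h4 : 4 ≤ orderOf (v * w) := by
    obtain ⟨s, hs, P⟩ := H.exists_pr h (hall E h)
    obtain ⟨v', T'⟩ := hTw _ (h.cj (le_normalizer hs))
    obtain ⟨j, hj, -⟩ := T.pair T' H P.ne
    refine le_trans ?_ (hmax v' ⟨_, T'⟩)
    rw [hj, pow_add]
    have : 0 < 2 ^ j := by positivity
    omega
  have hu : u ∈ zpowers (v * w) := by
    obtain ⟨E₁, T₁⟩ := hw
    have hne : E ≠ E₁ := fun e => by
      subst e
      have : (v * w) ^ 2 = 1 := by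
        rcases T.v_eq T₁ with e | e
        · rw [e, T.vv, one_pow]
        · rw [e, ← mul_assoc, T.vv, one_mul, pow_two, T.uu]
      have := Nat.le_of_dvd two_pos (orderOf_dvd_of_pow_eq_one this)
      omega
    obtain ⟨j, -, e⟩ := T.pair T₁ H hne
    exact e ▸ mul_mem (pow_mem (mem_zpowers _) _) (pow_mem (mem_zpowers _) _)
  have hz := T.mem_zpowers H hw hu hmax
  set K : Subgroup G := closure {v, w} with hK
  have hvK : v ∈ K := subset_closure (by simp)
  have hwK : w ∈ K := subset_closure (by simp)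
  have hxK : zpowers (v * w) ≤ K := zpowers_le.2 (mul_mem hvK hwK)
  have hCl : ∀ y, Cl S u y → y ∈ K := fun y hy => (mul_mem_cancel_left hvK).1 (hxK (hz y hy))
  have hKS : K ≤ S := (closure_le _).2 (by rintro _ (rfl | rfl); exacts [hv.mem, hw.mem])
  have hNK : normalizer (S : Set G) ≤ normalizer (K : Set G) := le_normalizer_of_cj fun n hn => by
    refine (MonoidHom.map_closure _ _).le.trans ((closure_le _).2 ?_)
    rintro _ ⟨_, rfl | rfl, rfl⟩
    exacts [hCl _ (hv.conj H hn), hCl _ (Cl.conj hw H hn)]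
  have hfus : ∀ M, K ≤ M → ∀ E, Ess S E → ∀ l, Gen S E l → ∀ x ∈ E, x⁻¹ * (l * x * l⁻¹) ∈ M :=
    fun M hM E' h' => by
      obtain ⟨v', T'⟩ := hTw E' h'
      exact T'.fus M (hM (hxK hu)) (hM (hCl v' ⟨_, T'⟩))
  -- odd order elements centralize `K`
  have hodd : ∀ k ∈ normalizer (S : Set G), Odd (orderOf k) → k ∈ centralizer (K : Set G) := by
    intro k hk ho
    have ho' := Inv.Fz.odd_orderOf_conj ho
    obtain ⟨i, hi⟩ := H.syl.isPGroup ⟨v * w, mul_mem hv.mem hw.mem⟩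
    have hi' : (v * w) ^ 2 ^ i = 1 := congrArg Subtype.val hi
    have h1 : MulAut.conj k (v * w) = v * w := Inv.Fz.fix_of_mem_zpowers ho' hi' (by
      have := mul_mem (inv_mem (hz _ (hv.conj H hk))) (hz _ (Cl.conj hw H hk))
      rw [map_mul, MulAut.conj_apply, MulAut.conj_apply, ← inv_eq_of_sq (hv.conj H hk).sq]
      convert this using 1; group)
    have h2 : MulAut.conj k v = v := by
      obtain ⟨m, hm⟩ := hz _ (hv.conj H hk)
      change (v * w) ^ m = _ at hm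
      refine Inv.Fz.fix_of_eq_mul_fixed ho' (c := (v * w) ^ m) (k := i) ?_ (by rw [map_zpow, h1]) ?_
      · rw [hm, ← mul_assoc, T.vv, one_mul, MulAut.conj_apply]
      · rw [← zpow_natCast, ← zpow_mul, mul_comm m, zpow_mul, zpow_natCast, hi', one_zpow]
    have h3 : MulAut.conj k w = w := by rw [map_mul, h2] at h1; exact mul_left_cancel h1
    rw [hK, centralizer_closure]
    rintro _ (rfl | rfl)
    exacts [(mul_inv_eq_iff_eq_mul.1 h2).symm, (mul_inv_eq_iff_eq_mul.1 h3).symm]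
  set C := S ⊓ centralizer (K : Set G) with hCdef
  have hSC : S ≤ normalizer (C : Set G) :=
    le_normalizer_inf le_normalizer (le_normalizer_centralizer (le_normalizer.trans hNK))
  have hKC : S ≤ K ⊔ C := by
    refine le_of_le_sup_comm H.syl.isPGroup (sup_le hKS inf_le_left) (H.le_of_foc hF
      (fun n hn y hy => ?_) (hfus _ (le_sup_left.trans le_sup_left)))
    obtain ⟨s, hs, k, hk, ho, rfl⟩ := exists_mul_odd H.syl hn
    have h1 : y⁻¹ * (k * y * k⁻¹) ∈ C := by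
      refine ⟨S.mul_mem (inv_mem hy) (conj_mem hk hy), ?_⟩
      have := mul_mem (conj_mem' (le_normalizer_centralizer hNK (le_normalizer hy)) (hodd k hk ho))
        (inv_mem (hodd k hk ho))
      simpa [mul_assoc] using this
    have := mul_mem (mem_sup_right (commutator_mem_commutator (inv_mem hy) hs))
      (mem_sup_left (mem_sup_right (conj_mem (hSC hs) h1)) : _ ∈ K ⊔ C ⊔ ⁅S, S⁆)
    convert this using 1
    rw [commutatorElement_def]; group
  have hdec : ∀ y ∈ S, ∃ a ∈ K, ∃ z ∈ C, a * z = y := fun y hy =>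
    (mem_sup_of_normalizes (hKS.trans hSC)).1 (hKC hy)
  have hCE : C ≤ E := fun z hz => T.mem_of_comm H hz.1 (hz.2 v hvK).symm
  have hCS : C ≤ centralizer (S : Set G) := fun z hz y hy => by
    obtain ⟨a, ha, c, hc, rfl⟩ := hdec y hy
    rw [mul_assoc, h.comm c (hCE hc) z (hCE hz), ← mul_assoc, hz.2 a ha, mul_assoc]
  -- the strongly closed subgroup
  let D : Subgroup G := S ⊓ centralizer (S : Set G) ⊓ centralizer {l | ∃ E, Ess S E ∧ Gen S E l}
  have hD : D = ⊥ := H.eq_bot hC (inf_le_left.trans inf_le_left)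
    (fun x hx y hy => hy.1.2 x hx.1.1) (fun n hn x hx => ⟨⟨conj_mem hn hx.1.1,
      conj_mem (normalizer_le_normalizer_centralizer S hn) hx.1.2⟩, fun l ⟨E', h', hl⟩ => by
        have := hx.2 _ ⟨_, h'.cj (inv_mem hn), hl.cj (inv_mem hn)⟩
        calc l * (n * x * n⁻¹) = n * (n⁻¹ * l * n⁻¹⁻¹ * x) * n⁻¹ := by group
          _ = _ := by rw [this]; group⟩) fun E' h' l hl x _ =>
      ⟨fun hx => by rwa [hx.2 l ⟨E', h', hl⟩, mul_inv_cancel_right], fun hx => by
        have := hx.2 l ⟨E', h', hl⟩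
        rwa [show l * x * l⁻¹ = x from mul_left_cancel (a := l) (by rw [this]; group)] at hx⟩
  have hfixC : ∀ n ∈ normalizer (S : Set G), ∀ z ∈ C, n * z * n⁻¹ = z := by
    intro n hn z hz
    obtain ⟨s, hs, k, hk, ho, rfl⟩ := exists_mul_odd H.syl hn
    have h1 := conj_mem (normalizer_le_normalizer_centralizer S hk) (hCS hz)
    have h2 : z⁻¹ * (k * z * k⁻¹) ∈ D := by
      refine ⟨⟨S.mul_mem (inv_mem hz.1) (conj_mem hk hz.1),
        (centralizer (S : Set G)).mul_mem (inv_mem (hCS hz)) h1⟩, ?_⟩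
      rintro l ⟨E', h', hl⟩
      obtain ⟨v', T'⟩ := hTw E' h'
      have hkc := hodd k hk ho
      have hkE : cj k E' = E' := (T'.eq_of_comm (T'.cj hk) H (by
        rw [← hkc v' (hCl v' ⟨_, T'⟩), mul_inv_cancel_right]; exact T'.v_mem)).symm
      have hl' : Gen S E' (k⁻¹ * l * k) := Gen.of_cj hk (hkE.symm ▸ hl)
      have key : ∀ y, (∀ l, Gen S E' l → l * y = y * l) →
          l * (y⁻¹ * (k * y * k⁻¹)) = y⁻¹ * (k * y * k⁻¹) * l := fun y hy => by
        have e1 := hy l hl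
        have e2 := hy _ hl'
        calc l * (y⁻¹ * (k * y * k⁻¹)) = y⁻¹ * (y * l) * y⁻¹ * (k * y * k⁻¹) := by group
          _ = y⁻¹ * k * (k⁻¹ * l * k * y) * k⁻¹ := by rw [← e1]; group
          _ = _ := by rw [e2]; group
      rcases T'.cen z (h'.cent z hz.1 fun x hx => (hCS hz x (h'.le hx)).symm)
        (centralizer_le inf_le_left (hCS hz)) with e | e
      · exact key z e
      · have := key _ e
        rwa [show (z * u)⁻¹ * (k * (z * u) * k⁻¹) = z⁻¹ * (k * z * k⁻¹) from by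
          calc (z * u)⁻¹ * (k * (z * u) * k⁻¹) = u⁻¹ * (z⁻¹ * (k * z * k⁻¹)) * (k * u) * k⁻¹ := by
                group
            _ = u⁻¹ * (z⁻¹ * (k * z * k⁻¹) * u) := by rw [← hkc u (hxK hu)]; group
            _ = _ := by
              rw [← mul_mem (inv_mem (hCS hz)) h1 u (h.le T.u_mem)]; group] at this
    rw [hD, mem_bot, inv_mul_eq_one] at h2
    calc s * k * z * (s * k)⁻¹ = s * (k * z * k⁻¹) * s⁻¹ := by group
      _ = z := by rw [← h2, hCS hz s hs]; group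
  have hSK : S ≤ K := H.le_of_foc hF (fun n hn y hy => by
    obtain ⟨a, ha, z, hz, rfl⟩ := hdec y hy
    have h1 := mul_mem (inv_mem ha) (conj_mem (hNK hn) ha)
    have h2 := hz.2 _ h1
    convert h1 using 1
    calc (a * z)⁻¹ * (n * (a * z) * n⁻¹) = z⁻¹ * (a⁻¹ * (n * a * n⁻¹) * (n * z * n⁻¹)) := by group
      _ = _ := by rw [hfixC n hn z hz, h2]; group) (hfus K le_rfl)
  have hv2 : ∀ y, Cl S u y → orderOf y = 2 := fun y ⟨E', T'⟩ =>
    orderOf_eq_prime (by rw [pow_two, T'.vv]) fun e => by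
      obtain ⟨a, ha, ha'⟩ := T'.ex
      exact T'.u_ne (by simpa [e] using (T'.mov a ha ha').symm)
  refine ⟨orderOf (v * w), by omega, ?_⟩
  rw [le_antisymm hSK hKS]
  refine Inv.nonempty_closure_pair_equiv_dihedral (hv2 v hv) (hv2 w hw) fun e => ?_
  rw [← e, T.vv, orderOf_one] at h4
  omega

theorem AI.main (H : AI S) (hF : Foc S) (hC : NoSC S) :
    (∃ m, 2 ≤ m ∧ Nonempty (S ≃* DihedralGroup m)) ∨
      ∀ x ∈ S, ∀ y ∈ S, ∀ z ∈ S, z * ⁅x, y⁆ = ⁅x, y⁆ * z := by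
  by_cases h1 : ∃ E, Ess S E ∧ S ≤ normalizer (E : Set G)
  · obtain ⟨E, h, hn⟩ := h1
    by_cases h2 : ∃ E', Ess S E' ∧ E ≠ E'
    · obtain ⟨E', h', hne⟩ := h2
      refine Or.inr (H.class_two h h' hne hn ?_)
      by_contra hn'
      obtain ⟨s, hs, P⟩ := H.exists_pr h' hn'
      exact P.not_normal H h hn' hn
    push Not at h2
    have := H.eq_bot hC h.le h.comm (fun n hn x hx => h2 _ (h.cj hn) ▸ conj_mem_cj n hx)
      fun E' h' l hl x hx => by
        rw [h2 E' h']; exact ⟨fun _ => conj_mem hl.mem hx, fun _ => hx⟩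
    obtain ⟨g, -, hg⟩ := h.nc
    exact absurd (fun x hx => by rw [this, mem_bot] at hx; simp [hx]) (hg 1 (one_mem _))
  by_cases h2 : ∃ E, Ess S E
  · obtain ⟨E, h⟩ := h2
    exact Or.inl (H.dihedral hF hC h fun E' h' hn => h1 ⟨E', h', hn⟩)
  have := H.eq_bot hC (A := S ⊓ centralizer (S : Set G)) inf_le_left (fun x hx y hy => hy.2 x hx.1)
    (fun n hn x hx => ⟨conj_mem hn hx.1, conj_mem (normalizer_le_normalizer_centralizer S hn) hx.2⟩)
    fun E h => absurd ⟨E, h⟩ h2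
  by_cases h3 : S = ⊥
  · refine Or.inr fun x _ y _ z hz => ?_
    rw [h3, mem_bot] at hz
    simp [hz]
  exact absurd (le_bot_iff.1 (this ▸ le_inf (omZ_le 2 S) (omZ_le_centralizer 2 S)))
    (omZ_ne_bot H.syl.isPGroup h3)

end Cfsg.Agent.Fus.AS
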