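import Mathlib
import Cfsg.Agent.Fus.LieFlag

/-!
Isometry groups of determinant one of a skew-Hermitian form with antidiagonal Gram matrix (this
covers the symplectic and the special unitary groups): Eichler transformations and the reduction
of triangular elements.
-/

set_option autoImplicit false

namespace Cfsg.Agent.Fus.LF

open Matrix Subgroup Cl SC

variable {G : Type*} [Group G] {F : Type*} [Field F] {σ : F →+* F} {n : ℕ}
  {φ : G →* GL (Fin n) F} {B : (Fin n → F) →ₗ[F] (Fin n → F) →ₛₗ[σ] F} {ε : Fin n → F}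

/-- The standard basis vectors. -/
def ev (F : Type*) [Field F] {n : ℕ} (j : Fin n) : Fin n → F := Pi.single j 1

theorem ev_apply (j i : Fin n) : ev F j i = if i = j then 1 else 0 := Pi.single_apply _ _ _

theorem ev_self (j : Fin n) : ev F j j = 1 := Pi.single_eq_same _ _

theorem ev_ne {j i : Fin n} (h : i ≠ j) : ev F j i = 0 := Pi.single_eq_of_ne h _

theorem mx_ev (g : G) (j i : Fin n) : (mx φ g *ᵥ ev F j) i = mx φ g i j := (mx_apply g i j).symm

theorem col_of_fix {g : G} {j : Fin n} (h : mx φ g *ᵥ ev F j = ev F j) (i : Fin n) :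
    mx φ g i j = (1 : Matrix _ _ F) i j := by
  rw [← mx_ev, h, ev_apply, one_apply]

theorem fix_of_col {g : G} {j : Fin n} (h : ∀ i, mx φ g i j = (1 : Matrix _ _ F) i j) :
    mx φ g *ᵥ ev F j = ev F j := funext fun i => by rw [mx_ev, h, ev_apply, one_apply]

/-- The data of an Eichler transformation. -/
structure Cnd (B : (Fin n → F) →ₗ[F] (Fin n → F) →ₛₗ[σ] F) (z u : Fin n → F) (s : F) : Prop where
  iso : B z z = 0
  perp : B u z = 0
  eq : s - σ s = B u u

/-- The setting. -/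
structure Sk (φ : G →* GL (Fin n) F) (B : (Fin n → F) →ₗ[F] (Fin n → F) →ₛₗ[σ] F)
    (ε : Fin n → F) : Prop where
  inv : ∀ a, σ (σ a) = a
  skew : ∀ x y, σ (B x y) = -B y x
  sing : ∀ x j, B x (ev F j) = ε j * x j.rev
  lt : ∀ j : Fin n, j < j.rev → ε j = -1
  gt : ∀ j : Fin n, j.rev < j → ε j = 1
  ne : ∀ j, ε j ≠ 0
  tr : ∀ v, ∃ s, s - σ s = B v v
  mid : ∀ (d : F) (i : Fin n), i.rev = i → ∃ c : F, d - σ d = B (c • ev F i) (c • ev F i)
  inj : Function.Injective φ
  iso : ∀ g x y, B (mx φ g *ᵥ x) (mx φ g *ᵥ y) = B x y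
  det : ∀ g, (mx φ g).det = 1
  sur : ∀ z u s, Cnd B z u s → ∃ g, ∀ x,
    mx φ g *ᵥ x = x + B x u • z + B x z • u + (s * B x z) • z

namespace Sk

variable (H : Sk φ B ε) {z u u' x y : Fin n → F} {s s' : F} {g : G} {i j k r : Fin n}
include H

theorem zero_symm (h : B x y = 0) : B y x = 0 := by
  have := H.skew x y
  rw [h, map_zero] at this
  exact neg_eq_zero.1 this.symm

theorem ev_right (h : x j.rev = 0) : B x (ev F j) = 0 := by rw [H.sing, h, mul_zero]

theorem ev_left (h : x j.rev = 0) : B (ev F j) x = 0 := H.zero_symm (H.ev_right h)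

theorem ev_right_iff : B x (ev F j) = 0 ↔ x j.rev = 0 := by
  rw [H.sing, mul_eq_zero, or_iff_right (H.ne j)]

theorem ev_ev (h : i ≠ j.rev) : B (ev F i) (ev F j) = 0 := H.ev_right (ev_ne h.symm)

theorem sing_lt (h : j < j.rev) (x : Fin n → F) : B x (ev F j) = -x j.rev := by
  rw [H.sing, H.lt j h, neg_one_mul]

theorem sing_rev (h : j < j.rev) (x : Fin n → F) : B x (ev F j.rev) = x j := by
  rw [H.sing, H.gt j.rev (by rwa [Fin.rev_rev]), one_mul, Fin.rev_rev]

theorem row_of_fix (h : mx φ g *ᵥ ev F r = ev F r) (j : Fin n) :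
    mx φ g r.rev j = (1 : Matrix _ _ F) r.rev j := by
  have := H.iso g (ev F j) (ev F r)
  rw [h, H.sing, H.sing, mx_ev, ev_apply] at this
  rw [mul_left_cancel₀ (H.ne r) this, one_apply]

theorem row_of_fix' (h : mx φ g *ᵥ ev F r.rev = ev F r.rev) (j : Fin n) :
    mx φ g r j = (1 : Matrix _ _ F) r j := by
  have := H.row_of_fix h j
  rwa [Fin.rev_rev] at this

theorem cnd_map (h : Cnd B z u s) (g : G) : Cnd B (mx φ g *ᵥ z) (mx φ g *ᵥ u) s :=
  ⟨by rw [H.iso, h.iso], by rw [H.iso, h.perp], by rw [H.iso, h.eq]⟩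

theorem cnd_add (h : Cnd B z u s) (h' : Cnd B z u' s') : Cnd B z (u + u') (s + s' + B u' u) :=
  ⟨h.iso, by simp [h.perp, h'.perp], by
    simp only [map_add, LinearMap.add_apply, H.skew]
    linear_combination h.eq + h'.eq⟩

omit H in
theorem cnd_zero (hz : B z z = 0) (hs : σ s = s) : Cnd B z 0 s :=
  ⟨hz, by simp, by simp [hs]⟩

open Classical in
/-- The Eichler transformation. -/
noncomputable def E (z u : Fin n → F) (s : F) : G :=
  if h : Cnd B z u s then (H.sur z u s h).choose else 1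

theorem E_apply (h : Cnd B z u s) (x : Fin n → F) :
    mx φ (H.E z u s) *ᵥ x = x + B x u • z + B x z • u + (s * B x z) • z := by
  rw [E, dif_pos h]
  exact (H.sur z u s h).choose_spec x

theorem E_fix (h : Cnd B z u s) (h1 : B x u = 0) (h2 : B x z = 0) :
    mx φ (H.E z u s) *ᵥ x = x := by
  simp [H.E_apply h, h1, h2]

theorem E_conj (h : Cnd B z u s) (g : G) :
    g * H.E z u s * g⁻¹ = H.E (mx φ g *ᵥ z) (mx φ g *ᵥ u) s := mx_ext H.inj fun x => by
  have e : ∀ y, B (mx φ g⁻¹ *ᵥ x) y = B x (mx φ g *ᵥ y) := fun y => by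
    rw [← H.iso g, mx_mulVec_inv]
  rw [mx_mul_mulVec, mx_mul_mulVec, H.E_apply h, H.E_apply (H.cnd_map h g), e, e]
  simp only [mulVec_add, mulVec_smul, mx_mulVec_inv]

theorem E_mul (h : Cnd B z u s) (h' : Cnd B z u' s') :
    H.E z u s * H.E z u' s' = H.E z (u + u') (s + s' + B u' u) := mx_ext H.inj fun x => by
  rw [mx_mul_mulVec, H.E_apply h', H.E_apply h, H.E_apply (H.cnd_add h h')]
  simp only [map_add, LinearMap.add_apply, map_smul, LinearMap.smul_apply, smul_eq_mul, h.iso,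
    h'.perp, H.zero_symm h.perp]
  module

theorem E_mul_zero (h : Cnd B z u s) (hs : σ s' = s') :
    H.E z u s * H.E z 0 s' = H.E z u (s + s') := by
  simpa using H.E_mul h (cnd_zero h.iso hs)

theorem E_zero (hz : B z z = 0) : H.E z 0 0 = 1 := mx_ext H.inj fun x => by
  simp [H.E_apply (cnd_zero hz (map_zero σ)), mx_one]

theorem E_smul (hz : B z z = 0) (hs : σ s = s) (a : F) :
    H.E (a • z) 0 s = H.E z 0 (a * σ a * s) := mx_ext H.inj fun x => by
  rw [H.E_apply (cnd_zero (by simp [hz]) hs),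
    H.E_apply (cnd_zero hz (by rw [map_mul, map_mul, H.inv, hs, mul_comm a]))]
  simp only [map_zero, LinearMap.map_smulₛₗ, smul_eq_mul]
  module

theorem E_nilpotent (h : Cnd B z u s) : IsNilpotent (mx φ (H.E z u s) - 1) := by
  refine ⟨3, Matrix.ext fun i j => ?_⟩
  have e : ∀ x, (mx φ (H.E z u s) - 1) *ᵥ x = B x u • z + B x z • u + (s * B x z) • z :=
    fun x => by rw [sub_mulVec, one_mulVec, H.E_apply h]; abel
  have : ((mx φ (H.E z u s) - 1) ^ 3) *ᵥ ev F j = 0 := by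
    rw [pow_three, ← mulVec_mulVec, ← mulVec_mulVec, e, e, e]
    simp [h.iso, h.perp, H.zero_symm h.perp]
  simpa [ev] using congrFun this i

theorem E_entry (h : Cnd B z u s) (h1 : u i.rev = 0 ∨ z r = 0) (h2 : z i.rev = 0 ∨ u r = 0)
    (h3 : s = 0 ∨ z i.rev = 0 ∨ z r = 0) :
    mx φ (H.E z u s) r i = (1 : Matrix _ _ F) r i := by
  rw [← mx_ev, H.E_apply h, one_apply, ← ev_apply]
  simp only [Pi.add_apply, Pi.smul_apply, smul_eq_mul]
  have e1 : B (ev F i) u * z r = 0 := by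
    rcases h1 with h1 | h1
    · rw [H.ev_left h1, zero_mul]
    · rw [h1, mul_zero]
  have e2 : B (ev F i) z * u r = 0 := by
    rcases h2 with h2 | h2
    · rw [H.ev_left h2, zero_mul]
    · rw [h2, mul_zero]
  have e3 : s * B (ev F i) z * z r = 0 := by
    rcases h3 with h3 | h3 | h3
    · rw [h3, zero_mul, zero_mul]
    · rw [H.ev_left h3, mul_zero, zero_mul]
    · rw [h3, mul_zero]
  rw [e1, e2, e3, add_zero, add_zero, add_zero]

theorem E_mem (hj : j < j.rev) (h : Cnd B (ev F j) u s) (hu : ∀ l, j.rev ≤ l → u l = 0) :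
    H.E (ev F j) u s ∈ uG φ id := mem_uG.2 fun r i hri => by
  have hri' : i ≤ r := hri
  refine H.E_entry h ?_ ?_ ?_
  · by_cases e : r = j
    · exact Or.inl (hu _ (Fin.rev_le_rev.2 (e ▸ hri')))
    · exact Or.inr (ev_ne e)
  · by_cases e : i.rev = j
    · exact Or.inr (hu _ (by rw [← e, Fin.rev_rev]; exact hri'))
    · exact Or.inl (ev_ne e)
  · by_cases e : i.rev = j
    · refine Or.inr (Or.inr (ev_ne ?_))
      rintro rfl
      rw [← e, Fin.rev_rev] at hj
      rw [← e] at hri'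
      exact absurd hri' (not_le.2 hj)
    · exact Or.inr (Or.inl (ev_ne e))

theorem E_rev (hj : j < j.rev) (h : Cnd B (ev F j) u s) :
    mx φ (H.E (ev F j) u s) *ᵥ ev F j.rev =
      ev F j.rev + (B (ev F j.rev) u - s) • ev F j - u := by
  rw [H.E_apply h, H.sing_lt hj, ev_self]
  module

theorem E_inj (hj : j < j.rev) (h : Cnd B (ev F j) u s) (h' : Cnd B (ev F j) u s')
    (e : H.E (ev F j) u s = H.E (ev F j) u s') : s = s' := by
  have := H.E_rev hj h
  rw [e, H.E_rev hj h'] at this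
  have := congrFun this j
  simp only [Pi.sub_apply, Pi.add_apply, Pi.smul_apply, ev_self, smul_eq_mul] at this
  linear_combination this

/-- The root elements of the Levi factor of the stabilizer of a maximal isotropic subspace. -/
noncomputable def X (j k : Fin n) (c : F) : G := H.E (ev F j) (σ c • ev F k.rev) 0

theorem X_cnd (hj : j < j.rev) (hk : k < k.rev) (h : j ≠ k) (c : F) :
    Cnd B (ev F j) (σ c • ev F k.rev) 0 :=
  ⟨H.ev_ev hj.ne, by simp [H.ev_ev (Fin.rev_injective.ne h.symm)],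
    by simp [H.ev_ev (i := k.rev) (j := k.rev) (by rw [Fin.rev_rev]; exact hk.ne')]⟩

theorem X_apply (hj : j < j.rev) (hk : k < k.rev) (h : j ≠ k) (c : F) (x : Fin n → F) :
    mx φ (H.X j k c) *ᵥ x = x + (c * x k) • ev F j - (σ c * x j.rev) • ev F k.rev := by
  rw [X, H.E_apply (H.X_cnd hj hk h c), LinearMap.map_smulₛₗ, H.inv, H.sing_lt hj, H.sing_rev hk,
    smul_eq_mul]
  module

/-- `g` fixes the first `k` hyperbolic pairs. -/
def Fx (φ : G →* GL (Fin n) F) (k : ℕ) : Subgroup G where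
  carrier := {g | ∀ i : Fin n, i.val < k → i < i.rev →
    mx φ g *ᵥ ev F i = ev F i ∧ mx φ g *ᵥ ev F i.rev = ev F i.rev}
  mul_mem' ha hb i h1 h2 := by
    rw [mx_mul_mulVec, mx_mul_mulVec, (hb i h1 h2).1, (hb i h1 h2).2]
    exact ha i h1 h2
  one_mem' i _ _ := by simp [mx_one]
  inv_mem' ha i h1 h2 := ⟨mx_inv_of_eq (ha i h1 h2).1, mx_inv_of_eq (ha i h1 h2).2⟩

theorem E_mem_Fx {m : ℕ} (h : Cnd B z u s)
    (hz : ∀ i : Fin n, i.val < m → i < i.rev → z i = 0 ∧ z i.rev = 0)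
    (hu : ∀ i : Fin n, i.val < m → i < i.rev → u i = 0 ∧ u i.rev = 0) : H.E z u s ∈ Fx φ m :=
  fun i h1 h2 => ⟨H.E_fix h (H.ev_left (hu i h1 h2).2) (H.ev_left (hz i h1 h2).2),
    H.E_fix h (H.ev_left (by rw [Fin.rev_rev]; exact (hu i h1 h2).1))
      (H.ev_left (by rw [Fin.rev_rev]; exact (hz i h1 h2).1))⟩

theorem smul_of_Fx (hk : k < k.rev) (hg : g ∈ pG φ id) (hf : g ∈ Fx φ k) :
    mx φ g *ᵥ ev F k = mx φ g k k • ev F k := funext fun r => by
  rw [mx_ev, Pi.smul_apply, smul_eq_mul]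
  rcases lt_trichotomy r k with h | rfl | h
  · rw [H.row_of_fix' (hf r h (h.trans (hk.trans (Fin.rev_lt_rev.2 h)))).2, one_apply_ne h.ne,
      ev_ne h.ne, mul_zero]
  · rw [ev_self, mul_one]
  · rw [mem_pG.1 hg r k h, ev_ne h.ne', mul_zero]

theorem exists_E (hk : k < k.rev) (hg : g ∈ pG φ id) (hf : g ∈ Fx φ k) (h1 : mx φ g k k = 1) :
    ∃ u s, Cnd B (ev F k) u s ∧ (∀ r, r ≤ k ∨ k.rev ≤ r → u r = 0) ∧
      (H.E (ev F k) u s)⁻¹ * g ∈ Fx φ (k + 1) := by
  have hk1 := H.smul_of_Fx hk hg hf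
  rw [h1, one_smul] at hk1
  set w := mx φ g *ᵥ ev F k.rev with hw
  set u := ev F k.rev + w k • ev F k - w with hu
  have hu0 : ∀ r, r ≤ k ∨ k.rev ≤ r → u r = 0 := by
    intro r hr
    simp only [hu, Pi.sub_apply, Pi.add_apply, Pi.smul_apply, smul_eq_mul]
    rcases hr with hr | hr
    · rcases eq_or_lt_of_le hr with rfl | hr
      · rw [ev_ne hk.ne, ev_self]; ring
      · rw [ev_ne (hr.trans hk).ne, ev_ne hr.ne, mul_zero, hw, mx_ev, H.row_of_fix' (hf r hr
          (hr.trans (hk.trans (Fin.rev_lt_rev.2 hr)))).2, one_apply_ne (hr.trans hk).ne]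
        ring
    · rw [ev_ne (hk.trans_le hr).ne', mul_zero]
      rcases eq_or_lt_of_le hr with rfl | hr
      · rw [hw, mx_ev, H.row_of_fix hk1, one_apply_eq, ev_self]; ring
      · rw [hw, mx_ev, mem_pG.1 hg r k.rev hr, ev_ne hr.ne']; ring
  have e1 : B u (ev F k) = 0 := H.ev_right (hu0 _ (Or.inr le_rfl))
  have e2 : B u (ev F k.rev) = 0 := H.ev_right (by rw [Fin.rev_rev]; exact hu0 _ (Or.inl le_rfl))
  have hw' : w = ev F k.rev + w k • ev F k - u := by rw [hu]; abel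
  have hc : Cnd B (ev F k) u (-w k) := by
    refine ⟨H.ev_ev hk.ne, e1, ?_⟩
    have : B w w = 0 := by
      rw [hw, H.iso, H.ev_ev (by rw [Fin.rev_rev]; exact hk.ne')]
    generalize w k = c at hw' ⊢
    rw [hw'] at this
    simp only [map_add, map_sub, LinearMap.add_apply, LinearMap.sub_apply, map_smul,
      LinearMap.smul_apply, LinearMap.map_smulₛₗ, smul_eq_mul, e1, e2, H.zero_symm e1,
      H.zero_symm e2, H.sing_lt hk, H.sing_rev hk, ev_self, ev_ne hk.ne, ev_ne hk.ne'] at this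
    rw [map_neg]
    linear_combination -this
  refine ⟨u, -w k, hc, hu0, fun i hi hi' => ?_⟩
  rcases eq_or_lt_of_le (Nat.lt_succ_iff.1 hi) with h | h
  · obtain rfl : i = k := Fin.ext h
    rw [mx_mul_mulVec, mx_mul_mulVec, hk1]
    refine ⟨mx_inv_of_eq (H.E_fix hc (H.zero_symm e1) hc.iso), mx_inv_of_eq ?_⟩
    rw [H.E_rev hk hc, H.zero_symm e2, zero_sub, neg_neg, ← hw']
  · refine mul_mem (inv_mem (H.E_mem_Fx hc (fun r hr _ => ?_) fun r hr _ => ?_)) hf i h hi'
    · have hr' : r < k := hr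
      exact ⟨ev_ne hr'.ne, ev_ne (hk.trans (Fin.rev_lt_rev.2 hr')).ne'⟩
    · have hr' : r < k := hr
      exact ⟨hu0 _ (Or.inl hr'.le), hu0 _ (Or.inr (Fin.rev_le_rev.2 hr'.le))⟩

theorem reduce {D : Subgroup G}
    (hD : ∀ (j : Fin n) u s, j < j.rev → Cnd B (ev F j) u s → H.E (ev F j) u s ∈ uG φ id →
      H.E (ev F j) u s ∈ D) (hg : g ∈ pG φ id) (m : ℕ)
    (h1 : ∀ i : Fin n, i.val < m → mx φ g i i = 1) :
    ∃ t ∈ D, t ∈ uG φ id ∧ t⁻¹ * g ∈ Fx φ m := by
  induction m with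
  | zero => exact ⟨1, one_mem _, one_mem _, fun i hi => absurd hi (Nat.not_lt_zero _)⟩
  | succ m ih =>
    obtain ⟨t, htD, ht, hf⟩ := ih fun i hi => h1 i (by omega)
    by_cases hm : ∃ k : Fin n, k.val = m ∧ k < k.rev
    · obtain ⟨k, rfl, hk⟩ := hm
      have hi := inv_mem (uG_le_pG ht)
      obtain ⟨u, s, hc, hu, hE⟩ := H.exists_E hk (mul_mem hi hg) hf (by
        rw [diag_mul hi hg, diag_of_mem_uG (inv_mem ht), h1 k (by omega), one_mul])
      have hS := H.E_mem hk hc fun l hl => hu l (Or.inr hl)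
      exact ⟨t * H.E (ev F k) u s, mul_mem htD (hD _ _ _ hk hc hS), mul_mem ht hS,
        by rwa [_root_.mul_inv_rev, mul_assoc]⟩
    · refine ⟨t, htD, ht, fun i hi hi' => hf i ?_ hi'⟩
      by_contra h
      exact hm ⟨i, by omega, hi'⟩

theorem le_of_E {D : Subgroup G}
    (hD : ∀ (j : Fin n) u s, j < j.rev → Cnd B (ev F j) u s → H.E (ev F j) u s ∈ uG φ id →
      H.E (ev F j) u s ∈ D) : uG φ id ≤ D := fun g hg => by
  obtain ⟨t, htD, ht, hf⟩ := H.reduce hD (uG_le_pG hg) n fun i _ => diag_of_mem_uG hg i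
  have hS := mul_mem (inv_mem ht) hg
  have : t⁻¹ * g = 1 := H.inj (Units.ext (Matrix.ext fun r j => by
    change mx φ (t⁻¹ * g) r j = mx φ 1 r j
    rw [mx_one]
    rcases le_or_gt j r with h | h
    · exact mem_uG.1 hS r j h
    by_cases hr : r < r.rev
    · exact H.row_of_fix' (hf r r.2 hr).2 j
    · have : j.rev < j.rev.rev := by
        rw [Fin.rev_rev]
        exact (Fin.rev_lt_rev.2 h).trans_le ((not_lt.1 hr).trans h.le)
      have := (hf j.rev j.rev.2 this).2
      rw [Fin.rev_rev] at this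
      exact col_of_fix this r))
  rwa [← inv_mul_eq_one.1 this]

end Sk

end Cfsg.Agent.Fus.LF
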