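import Mathlib
import Cfsg.Agent.Fus.LieSkew

/-! Skew-Hermitian groups: the Borel subgroup is generated by local pieces. -/

set_option autoImplicit false

namespace Cfsg.Agent.Fus.LF

open Matrix Subgroup Cl SC

variable {G : Type*} [Group G] {F : Type*} [Field F] {σ : F →+* F} {n : ℕ}
  {φ : G →* GL (Fin n) F} {B : (Fin n → F) →ₗ[F] (Fin n → F) →ₛₗ[σ] F} {ε : Fin n → F}

/-- Labels of the stabilizer of the first basis vector. -/
def bZ (i : Fin n) : ℕ := if i.val = 0 then 0 else if i.val + 1 = n then 2 else 1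

/-- Labels of the stabilizer of the maximal isotropic subspace. -/
def bW (i : Fin n) : ℕ := if 2 * i.val + 1 < n then 0 else if 2 * i.val + 1 = n then 1 else 2

theorem bZ_mono : Monotone (bZ (n := n)) := fun x y h => by
  have : x.val ≤ y.val := h
  have := y.2
  unfold bZ
  split_ifs <;> omega

theorem bW_mono : Monotone (bW (n := n)) := fun x y h => by
  have : x.val ≤ y.val := h
  unfold bW
  split_ifs <;> omega

theorem lt_rev_iff {i : Fin n} : i < i.rev ↔ 2 * i.val + 1 < n := by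
  rw [Fin.lt_def, Fin.val_rev]
  omega

namespace Sk

variable (H : Sk φ B ε) {z u u' x y : Fin n → F} {s s' : F} {g : G} {i j k r o : Fin n}
include H

theorem E_mem_bZ (ho : o.val = 0) (ho' : o < o.rev) (h : Cnd B (ev F o) u s) :
    H.E (ev F o) u s ∈ uG φ bZ := mem_uG.2 fun r i hri => by
  have hu : u o.rev = 0 := H.ev_right_iff.1 h.perp
  have := lt_rev_iff.1 ho'
  have := r.2
  have := i.2
  unfold bZ at hri
  refine H.E_entry h ?_ ?_ ?_
  · by_cases e : r = o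
    · refine Or.inl ?_
      rw [← hu, show i = o from Fin.ext (by subst e; split_ifs at hri <;> omega)]
    · exact Or.inr (ev_ne e)
  · by_cases e : i.rev = o
    · refine Or.inr ?_
      rw [Fin.ext_iff, Fin.val_rev] at e
      rw [← hu, show r = o.rev from Fin.ext (by rw [Fin.val_rev]; split_ifs at hri <;> omega)]
    · exact Or.inl (ev_ne e)
  · by_cases e : i.rev = o
    · refine Or.inr (Or.inr (ev_ne ?_))
      rw [Fin.ext_iff, Fin.val_rev] at e
      rw [Ne, Fin.ext_iff]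
      split_ifs at hri <;> omega
    · exact Or.inr (Or.inl (ev_ne e))

theorem E_mem_o (ho : o.val = 0) (ho' : o < o.rev) (h : Cnd B (ev F o) u s) :
    H.E (ev F o) u s ∈ uG φ id := uG_le_uG_id bZ_mono (H.E_mem_bZ ho ho' h)

theorem mem_pG_bZ (ho : o.val = 0) (h : mx φ g *ᵥ ev F o = ev F o) : g ∈ pG φ bZ :=
  mem_pG.2 fun r i hri => by
    have := r.2
    have := i.2
    unfold bZ at hri
    by_cases e : i = o
    · subst e
      rw [col_of_fix h, one_apply_ne]
      rintro rfl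
      exact lt_irrefl _ hri
    · rw [Fin.ext_iff] at e
      obtain rfl : r = o.rev := Fin.ext (by rw [Fin.val_rev]; split_ifs at hri <;> omega)
      rw [H.row_of_fix h, one_apply_ne]
      rintro rfl
      exact lt_irrefl _ hri

theorem cent_bZ (ho : o.val = 0) (ho' : o < o.rev) :
    ∀ g ∈ uG φ id, (∀ r ∈ uG φ bZ, r * g = g * r) → g ∈ uG φ bZ := by
  intro g hg hc
  have h0 : mx φ g *ᵥ ev F o = ev F o := fix_of_col fun i =>
    mem_uG.1 hg i o (show o.val ≤ i.val by omega)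
  refine mem_uG.2 fun r i hri => ?_
  by_cases e : r = i
  · rw [e, diag_of_mem_uG hg, one_apply_eq]
  have := r.2
  have := i.2
  unfold bZ at hri
  rw [Fin.ext_iff] at e
  have hr : r ≠ o := by rw [Ne, Fin.ext_iff]; split_ifs at hri <;> omega
  have hi : o.rev ≠ i := by rw [Ne, Fin.ext_iff, Fin.val_rev]; split_ifs at hri <;> omega
  obtain ⟨s, hs⟩ := H.tr (ev F i)
  have h : Cnd B (ev F o) (ev F i) s := ⟨H.ev_ev ho'.ne, H.ev_right (ev_ne hi), hs⟩
  have h1 := H.E_conj h g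
  have h2 := H.cnd_map h g
  rw [← hc _ (H.E_mem_bZ ho ho' h), mul_inv_cancel_right, h0] at h1
  rw [h0] at h2
  have h3 := H.E_rev ho' h
  rw [h1, H.E_rev ho' h2] at h3
  have h4 := congrFun h3 r
  simp only [Pi.sub_apply, Pi.add_apply, Pi.smul_apply, ev_ne hr, smul_zero, add_zero,
    sub_right_inj, mx_ev] at h4
  rw [h4, ev_apply, one_apply]

theorem cent_bW : ∀ g ∈ uG φ id, (∀ r ∈ uG φ bW, r * g = g * r) → g ∈ uG φ bW := by
  intro g hg hc
  have key : ∀ i : Fin n, i < i.rev → mx φ g *ᵥ ev F i = ev F i := by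
    intro i hi
    have h : Cnd B (ev F i) 0 1 := cnd_zero (H.ev_ev hi.ne) (map_one σ)
    have hm : H.E (ev F i) 0 1 ∈ uG φ bW := mem_uG.2 fun r j hrj => by
      refine H.E_entry h (Or.inl rfl) (Or.inr rfl) (Or.inr ?_)
      by_cases e : j.rev = i
      · refine Or.inr (ev_ne ?_)
        rintro rfl
        have := lt_rev_iff.1 hi
        rw [Fin.ext_iff, Fin.val_rev] at e
        unfold bW at hrj
        split_ifs at hrj <;> omega
      · exact Or.inl (ev_ne e)
    have h1 := H.E_conj h g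
    have h2 := H.cnd_map h g
    rw [← hc _ hm, mul_inv_cancel_right] at h1
    have h3 := H.E_rev hi h
    rw [h1, H.E_apply h2] at h3
    simp only [mulVec_zero, map_zero, zero_smul, smul_zero, add_zero, one_mul, zero_sub,
      sub_zero, add_right_inj] at h3
    have h4 := congrFun h3 i
    simp only [Pi.smul_apply, mx_ev, diag_of_mem_uG hg, ev_self, smul_eq_mul, mul_one] at h4
    rw [h4] at h3
    simpa using h3
  refine mem_uG.2 fun r i hri => ?_
  by_cases hi : i < i.rev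
  · exact col_of_fix (key i hi) r
  by_cases hr : r.rev < r.rev.rev
  · exact H.row_of_fix' (key _ hr) i
  rw [lt_rev_iff] at hi hr
  rw [Fin.val_rev] at hr
  unfold bW at hri
  have := r.2
  obtain rfl : r = i := Fin.ext (by split_ifs at hri <;> omega)
  rw [diag_of_mem_uG hg, one_apply_eq]

/-- A torus element, up to a unipotent factor. -/
noncomputable def lev (j k : Fin n) (a : F) : G :=
  H.X k j (-a⁻¹) * H.X j k (a - 1) * H.X k j 1

theorem lev_apply (hj : j < j.rev) (hk : k < k.rev) (h : j < k) {a : F} (ha : a ≠ 0)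
    (x : Fin n → F) : mx φ (H.lev j k a) *ᵥ x = x + ((a - 1) * (x j + x k)) • ev F j +
      ((a⁻¹ - 1) * x k) • ev F k + ((σ a - 1) * (x k.rev - x j.rev)) • ev F k.rev +
      (((σ a)⁻¹ - 1) * x j.rev) • ev F j.rev := by
  have h1 : k.rev < j.rev := Fin.rev_lt_rev.2 h
  have hσ : σ a ≠ 0 := (map_ne_zero σ).2 ha
  rw [lev, mx_mul_mulVec, mx_mul_mulVec, H.X_apply hk hj h.ne', H.X_apply hj hk h.ne,
    H.X_apply hk hj h.ne']
  simp only [Pi.add_apply, Pi.sub_apply, Pi.smul_apply, smul_eq_mul, ev_self, ev_ne h.ne,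
    ev_ne hj.ne, ev_ne hk.ne', ev_ne h1.ne,
    ev_ne (h.trans hk).ne, ev_ne (h.trans hk).ne', ev_ne (hk.trans h1).ne, ev_ne (hk.trans h1).ne',
    map_neg, map_sub, map_one, map_inv₀]
  match_scalars <;> field_simp <;> ring

theorem lev_self (hj : j < j.rev) (hk : k < k.rev) (h : j < k) {a : F} (ha : a ≠ 0) :
    mx φ (H.lev j k a) *ᵥ ev F j = a • ev F j := by
  rw [H.lev_apply hj hk h ha]
  simp only [ev_self, ev_ne h.ne', ev_ne hj.ne', ev_ne (h.trans hk).ne']
  module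

theorem lev_mem (hj : j < j.rev) (hk : k < k.rev) (h : j < k) {a : F} (ha : a ≠ 0) :
    H.lev j k a ∈ pG φ id := mem_pG.2 fun r i hri => by
  have hri' : i < r := hri
  have h1 : k.rev < j.rev := Fin.rev_lt_rev.2 h
  rw [← mx_ev, H.lev_apply hj hk h ha]
  simp only [Pi.add_apply, Pi.smul_apply, smul_eq_mul, ev_ne hri'.ne', zero_add]
  have e : ∀ {l m : Fin n}, l ≤ m → ev F i m * ev F l r = 0 := fun {l m} hlm => by
    by_cases e : r = l
    · rw [ev_ne (hri'.trans_le (e ▸ hlm)).ne', zero_mul]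
    · rw [ev_ne e, mul_zero]
  linear_combination (a - 1) * (e (le_refl j) + e h.le) + (a⁻¹ - 1) * e (le_refl k) +
    (σ a - 1) * (e (le_refl k.rev) - e h1.le) + ((σ a)⁻¹ - 1) * e (le_refl j.rev)

variable {p : ℕ} [Fact p.Prime] [CharP F p]

theorem X_mem (hj : j < j.rev) (hk : k < k.rev) (h : j ≠ k) (c : F) :
    H.X j k c ∈ pGen p (uG φ bW) := by
  refine mem_pGen_of_nilpotent H.inj (mem_pG.2 fun r i hri => ?_)
    (H.E_nilpotent (H.X_cnd hj hk h c))
  have e : r ≠ i := by rintro rfl; exact lt_irrefl _ hri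
  rw [← one_apply_ne (α := F) e]
  have hj' := lt_rev_iff.1 hj
  have hk' := lt_rev_iff.1 hk
  have := i.2
  unfold bW at hri
  refine H.E_entry (H.X_cnd hj hk h c) ?_ ?_ (Or.inl rfl)
  · refine Or.inr (ev_ne ?_)
    rintro rfl
    split_ifs at hri <;> omega
  · refine Or.inl (ev_ne ?_)
    rw [Ne, Fin.ext_iff, Fin.val_rev]
    split_ifs at hri <;> omega

theorem lev_mem_pGen (hj : j < j.rev) (hk : k < k.rev) (h : j ≠ k) (a : F) :
    H.lev j k a ∈ pGen p (uG φ bW) :=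
  mul_mem (mul_mem (H.X_mem hk hj h.symm _) (H.X_mem hj hk h _)) (H.X_mem hk hj h.symm _)

theorem exists_y (ho : o.val = 0) (hok : o < k) (hk : k < k.rev) {a : Fin n → F}
    (ha : ∀ r : Fin n, r.rev ≠ r → a r = 0) (hs : s ≠ 0) (h : s - σ s = B a a) :
    ∃ y ∈ Fx φ k ⊓ pGen p (uG φ bZ), mx φ y *ᵥ ev F k.rev = (-s) • ev F k := by
  have hσ : σ s ≠ 0 := (map_ne_zero σ).2 hs
  have a1 : a k.rev = 0 := ha _ (by rw [Fin.rev_rev]; exact hk.ne)
  have a2 : a k.rev.rev = 0 := by rw [Fin.rev_rev]; exact ha _ hk.ne'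
  have c1 : Cnd B (ev F k) a s := ⟨H.ev_ev hk.ne, H.ev_right a1, h⟩
  have c2 : Cnd B (ev F k.rev) (s⁻¹ • a) (-s⁻¹) :=
    ⟨H.ev_ev (by rw [Fin.rev_rev]; exact hk.ne'), by simp [H.ev_right a2], by
      simp only [map_neg, map_inv₀, map_smul, LinearMap.smul_apply, LinearMap.map_smulₛₗ,
        smul_eq_mul, ← h]
      field_simp
      ring⟩
  have key : ∀ {z u : Fin n → F} {s : F}, Cnd B z u s →
      (∀ i : Fin n, i < k → z i = 0 ∧ z i.rev = 0) → (∀ r : Fin n, r.rev ≠ r → u r = 0) →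
      H.E z u s ∈ Fx φ k ⊓ pGen p (uG φ bZ) := fun hc hz hu => by
    have := H.E_mem_Fx (m := k) hc (fun i hi _ => hz i hi) fun i _ hi =>
      ⟨hu _ hi.ne', hu _ (by rw [Fin.rev_rev]; exact hi.ne)⟩
    exact ⟨this, mem_pGen_of_nilpotent H.inj (H.mem_pG_bZ ho
      (this o hok (hok.trans (hk.trans (Fin.rev_lt_rev.2 hok)))).1) (H.E_nilpotent hc)⟩
  refine ⟨(H.E (ev F k.rev) (s⁻¹ • a) (-s⁻¹))⁻¹ * H.E (ev F k) a s, mul_mem (inv_mem
    (key c2 (fun i hi => ⟨ev_ne (hi.trans hk).ne, ev_ne (Fin.rev_lt_rev.2 hi).ne'⟩)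
      fun r hr => by simp [ha r hr])) (key c1 (fun i hi =>
        ⟨ev_ne hi.ne, ev_ne (hk.trans (Fin.rev_lt_rev.2 hi)).ne'⟩) ha), ?_⟩
  rw [mx_mul_mulVec]
  refine mx_inv_of_eq ?_
  rw [H.E_rev hk c1, H.E_apply c2]
  simp only [map_smul, LinearMap.smul_apply, LinearMap.map_smulₛₗ, smul_eq_mul, H.ev_left a1,
    H.ev_left a2, H.sing_rev hk, ev_self]
  match_scalars <;> field_simp <;> ring

variable [Finite F]

theorem base (hn : 4 ≤ n) (hg : g ∈ pG φ id)
    (h1 : ∀ i : Fin n, i.val < n / 2 - 1 → mx φ g i i = 1) : g ∈ locGen p (uG φ id) := by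
  obtain ⟨t, ht, -, hf⟩ := H.reduce (D := uG φ id) (fun _ _ _ _ _ h => h) hg _ h1
  suffices h : t⁻¹ * g ∈ locGen p (uG φ id) by
    simpa using mul_mem (le_locGen (isPGroup_uG H.inj) ht) h
  replace hg := mul_mem (inv_mem (uG_le_pG ht)) hg
  generalize t⁻¹ * g = g at hg hf
  obtain ⟨k, hk0⟩ : ∃ k : Fin n, k.val = n / 2 - 1 := ⟨⟨n / 2 - 1, by omega⟩, rfl⟩
  obtain ⟨o, ho⟩ : ∃ o : Fin n, o.val = 0 := ⟨⟨0, by omega⟩, rfl⟩
  have hk : k < k.rev := lt_rev_iff.2 (by omega)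
  have hok : o < k := by rw [Fin.lt_def]; omega
  have hlt : ∀ i : Fin n, i < k → i < i.rev := fun i hi =>
    hi.trans (hk.trans (Fin.rev_lt_rev.2 hi))
  rw [← hk0] at hf
  have hd := diag_ne_zero hg k
  have hk1 := H.smul_of_Fx hk hg hf
  obtain ⟨a, ha, ha'⟩ : ∃ a : Fin n → F, (∀ r : Fin n, r.rev ≠ r → a r = 0) ∧
      mx φ g k k - σ (mx φ g k k) = B a a := by
    by_cases hm : ∃ i : Fin n, i.rev = i
    · obtain ⟨i, hi⟩ := hm
      obtain ⟨c, hc⟩ := H.mid (mx φ g k k) i hi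
      refine ⟨_, fun r hr => ?_, hc⟩
      rw [Pi.smul_apply, ev_ne, smul_zero]
      rintro rfl
      exact hr hi
    refine ⟨0, fun _ _ => rfl, ?_⟩
    have e1 := H.iso g (ev F k.rev) (ev F k)
    rw [hk1, LinearMap.map_smulₛₗ, H.sing_lt hk, H.sing_lt hk, mx_ev, ev_self, smul_eq_mul] at e1
    have e2 := det_of_mem_pG hg
    rw [H.det, Finset.prod_eq_mul k k.rev hk.ne] at e2
    · rw [map_zero]
      linear_combination mx φ g k k * e1 - σ (mx φ g k k) * e2
    · intro i _ ⟨hi1, hi2⟩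
      rcases lt_or_gt_of_ne hi1 with h | h
      · rw [col_of_fix (hf i h (hlt i h)).1, one_apply_eq]
      · have : i.rev < k := by
          have : i.rev ≠ i := fun e => hm ⟨i, e⟩
          have h3 : k.val < i.val := h
          have h4 : k.rev.rev ≠ k.rev := fun e => hm ⟨_, e⟩
          have h5 : ¬ n % 2 = 1 := fun e => hm ⟨⟨n / 2, by omega⟩, Fin.ext (by
            rw [Fin.val_rev]; simp only; omega)⟩
          rw [Ne, Fin.ext_iff, Fin.val_rev] at hi2
          rw [Fin.lt_def, Fin.val_rev]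
          omega
        rw [H.row_of_fix' (hf _ this (hlt _ this)).1, one_apply_eq]
    all_goals simp
  obtain ⟨y, hy, hy'⟩ := H.exists_y (p := p) ho hok hk ha hd ha'
  obtain ⟨y₁, hy₁, hy₁'⟩ := H.exists_y (p := p) (a := 0) (s := 1) ho hok hk (fun _ _ => rfl)
    one_ne_zero (by simp)
  have hl := mul_mem hy (inv_mem hy₁)
  have hl' : mx φ (y * y₁⁻¹) *ᵥ ev F k = mx φ g k k • ev F k := by
    have := mx_inv_of_eq hy₁'
    rw [neg_smul, one_smul, mulVec_neg, neg_eq_iff_eq_neg] at this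
    rw [mx_mul_mulVec, this, mulVec_neg, hy', neg_smul, neg_neg]
  generalize y * y₁⁻¹ = l at hl hl'
  have f1 := mul_mem (inv_mem (mem_inf.1 hl).1) hf
  have f2 : ∀ i : Fin n, i ≤ k → mx φ (l⁻¹ * g) *ᵥ ev F i = ev F i := fun i hi => by
    rcases eq_or_lt_of_le hi with rfl | hi
    · rw [mx_mul_mulVec, hk1, mx_inv_of_eq hl']
    · exact (f1 i hi (hlt i hi)).1
  have f3 : ∀ r i : Fin n, i ≤ k ∨ k.rev ≤ r →
      mx φ (l⁻¹ * g) r i = (1 : Matrix _ _ F) r i := fun r i h => by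
    rcases h with h | h
    · exact col_of_fix (f2 i h) r
    · exact H.row_of_fix' (f2 _ (Fin.rev_le_iff.1 h)) i
  have f4 : l⁻¹ * g ∈ pG φ id := mem_pG.2 fun r i hri => by
    have hri' : i.val < r.val := hri
    rw [f3 r i (by simp only [Fin.le_def, Fin.val_rev]; omega), one_apply_ne]
    rintro rfl
    omega
  have f5 : l⁻¹ * g ∈ uG φ id := mem_uG_of_diag f4 fun i => by
    by_cases h : i ≤ k ∨ k.rev ≤ i
    · rw [f3 i i h, one_apply_eq]
    have := det_of_mem_pG f4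
    rw [H.det, Finset.prod_eq_single i] at this
    · exact this.symm
    · intro j _ hj
      rw [f3 j j, one_apply_eq]
      rw [Ne, Fin.ext_iff] at hj
      simp only [Fin.le_def, Fin.val_rev] at h ⊢
      omega
    · simp
  refine mem_locGen_of bZ_mono (H.cent_bZ ho (hlt o hok)) hg ?_
  simpa using mul_mem (mem_inf.1 hl).2 (uG_le_pGen H.inj bZ_mono f5)

theorem aut (hn : 4 ≤ n) : pG φ id ≤ locGen p (uG φ id) := by
  refine pG_le_of_steps (k := n / 2 - 1) (fun j hj a ha => ?_) fun g hg h => H.base hn hg h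
  obtain ⟨k, hk0⟩ : ∃ k : Fin n, k.val = j.val + 1 := ⟨⟨j.val + 1, by omega⟩, rfl⟩
  have hj' : j < j.rev := lt_rev_iff.2 (by omega)
  have hk : k < k.rev := lt_rev_iff.2 (by omega)
  have h : j < k := by rw [Fin.lt_def]; omega
  have hl := H.lev_mem hj' hk h ha
  refine ⟨_, mem_locGen_of bW_mono H.cent_bW hl (H.lev_mem_pGen hj' hk h.ne a), hl,
    fun i hi => ?_, ?_⟩
  · rw [← mx_ev, H.lev_apply hj' hk h ha]
    simp [ev_self, ev_ne hi.ne, ev_ne (hi.trans h).ne, ev_ne (hi.trans hj').ne,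
      ev_ne (hi.trans (h.trans hk)).ne]
  · rw [← mx_ev, H.lev_self hj' hk h ha, Pi.smul_apply, ev_self, smul_eq_mul, mul_one]

omit [Finite F] in
theorem full : Full φ := by
  intro i j hij
  have h : i < j := by rw [Fin.lt_def]; omega
  have h' : j.rev < i.rev := Fin.rev_lt_rev.2 h
  by_cases hi : i < i.rev
  · by_cases hj : j = i.rev
    · have c : Cnd B (ev F i) 0 1 := cnd_zero (H.ev_ev hi.ne) (map_one σ)
      refine ⟨_, H.E_mem hi c fun _ _ => rfl, ?_⟩
      rw [← mx_ev, hj, H.E_rev hi c]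
      simp [ev_self, ev_ne hi.ne]
    · obtain ⟨s, hs⟩ := H.tr (ev F j.rev)
      have c : Cnd B (ev F i) (ev F j.rev) s := ⟨H.ev_ev hi.ne, H.ev_ev h'.ne, hs⟩
      refine ⟨_, H.E_mem hi c fun l hl => ev_ne (h'.trans_le hl).ne', ?_⟩
      rw [← mx_ev, H.E_apply c, H.ev_ev hj, H.sing, Fin.rev_rev]
      simp [ev_self, ev_ne h.ne, H.ne]
  · have h1 : j.rev < i := h'.trans_le (not_lt.1 hi)
    obtain ⟨s, hs⟩ := H.tr (ev F i)
    have h2 : j.rev < j.rev.rev := by rw [Fin.rev_rev]; exact h1.trans h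
    have c : Cnd B (ev F j.rev) (ev F i) s :=
      ⟨H.ev_ev h2.ne, H.ev_ev (by rw [Fin.rev_rev]; exact h.ne), hs⟩
    refine ⟨_, H.E_mem h2 c fun l hl => ev_ne ?_, ?_⟩
    · rw [Fin.rev_rev] at hl
      exact (h.trans_le hl).ne'
    · rw [← mx_ev, H.E_apply c, H.sing _ j.rev, Fin.rev_rev]
      simp [ev_self, ev_ne h.ne, ev_ne h1.ne', H.ne]

end Sk

end Cfsg.Agent.Fus.LF
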