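import Mathlib
import Cfsg.Agent.Fus.LieSkew2

/-! Skew-Hermitian groups: strongly closed subgroups of the unipotent group. -/

set_option autoImplicit false

namespace Cfsg.Agent.Fus.LF

open Matrix Subgroup Cl SC

variable {G : Type*} [Group G] {F : Type*} [Field F] {σ : F →+* F} {n : ℕ}
  {φ : G →* GL (Fin n) F} {B : (Fin n → F) →ₗ[F] (Fin n → F) →ₛₗ[σ] F} {ε : Fin n → F}

theorem exists_sq_sub_sq [Finite F] {x : F} (hx : σ x = x) :
    ∃ a b : F, σ a = a ∧ σ b = b ∧ x = a * a - b * b := by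
  by_cases h2 : (2 : F) = 0
  · have : CharP F 2 := CharTwo.of_one_ne_zero_of_two_eq_zero one_ne_zero h2
    obtain ⟨a, ha⟩ := surjective_frobenius F 2 x
    refine ⟨a, 0, frobenius_inj F 2 ?_, map_zero σ, by rw [← ha, frobenius_def]; ring⟩
    rw [frobenius_def, ← map_pow, ← frobenius_def, ha, hx]
  · refine ⟨(x + 1) / 2, (x - 1) / 2, by simp [hx, map_ofNat], by simp [hx, map_ofNat], ?_⟩
    field_simp
    ring

namespace Sk

variable (H : Sk φ B ε) {z u u' v x y : Fin n → F} {s s' : F} {g : G} {i j k r o : Fin n}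
  {T : Subgroup G}
include H

theorem orbit (ho : o < o.rev) (hj : j < j.rev) : ∃ g : G, mx φ g *ᵥ ev F o = ev F j := by
  by_cases h : j = o
  · exact ⟨1, by rw [mx_one, one_mulVec, h]⟩
  have h1 : j.rev ≠ o := fun e => by
    rw [← e, Fin.rev_rev] at ho
    exact lt_asymm ho hj
  have h2 : o.rev ≠ j := fun e => h1 (by rw [← e, Fin.rev_rev])
  refine ⟨H.X o j (-1) * H.X j o 1, ?_⟩
  rw [mx_mul_mulVec, H.X_apply hj ho h, H.X_apply ho hj (Ne.symm h)]
  simp [ev_self, ev_ne h, ev_ne h1, ev_ne h2, ev_ne ho.ne']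

theorem conj_mem (hT : IsStronglyClosed T (uG φ id)) (h : Cnd B z u s) (hm : H.E z u s ∈ T)
    (g : G) (hS : H.E (mx φ g *ᵥ z) (mx φ g *ᵥ u) s ∈ uG φ id) :
    H.E (mx φ g *ᵥ z) (mx φ g *ᵥ u) s ∈ T := by
  rw [← H.E_conj h] at hS ⊢
  exact hT.2 _ hm g hS

theorem stab_mem (ho : o.val = 0) (ho' : o < o.rev) (hT : IsStronglyClosed T (uG φ id))
    (h : Cnd B (ev F o) u s) (hm : H.E (ev F o) u s ∈ T) (hg : mx φ g *ᵥ ev F o = ev F o) :
    Cnd B (ev F o) (mx φ g *ᵥ u) s ∧ H.E (ev F o) (mx φ g *ᵥ u) s ∈ T := by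
  have h1 := H.cnd_map h g
  have h2 := H.conj_mem hT h hm g
  rw [hg] at h1 h2
  exact ⟨h1, h2 (H.E_mem_o ho ho' h1)⟩

theorem all_tv [Finite F] (ho : o.val = 0) (hok : o < k) (hk : k < k.rev)
    (hT : IsStronglyClosed T (uG φ id)) (hs : σ s = s) (h0 : s ≠ 0)
    (hm : H.E (ev F o) 0 s ∈ T) {c : F} (hc : σ c = c) : H.E (ev F o) 0 c ∈ T := by
  have ho' : o < o.rev := hok.trans (hk.trans (Fin.rev_lt_rev.2 hok))
  have hz := H.ev_ev ho'.ne
  have key : ∀ a : F, σ a = a → H.E (ev F o) 0 (a * a * s) ∈ T := fun a ha => by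
    by_cases h : a = 0
    · rw [h, zero_mul, zero_mul, H.E_zero hz]
      exact one_mem T
    have := H.conj_mem hT (cnd_zero hz hs) hm (H.lev o k a)
    rw [H.lev_self ho' hk hok h, mulVec_zero, H.E_smul hz hs, ha] at this
    exact this (H.E_mem_o ho ho' (cnd_zero hz (by simp [ha, hs])))
  obtain ⟨a, b, ha, hb, h⟩ := exists_sq_sub_sq (σ := σ) (x := c / s) (by simp [hc, hs])
  have e := H.E_mul_zero (cnd_zero hz hc) (s' := b * b * s) (by simp [hb, hs])
  rw [show c + b * b * s = a * a * s by rw [← div_mul_cancel₀ c h0, h]; ring] at e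
  exact (mul_mem_cancel_right (key b hb)).1 (e ▸ key a ha)

/-- The vectors all of whose Eichler transformations lie in `T`. -/
def Ok (T : Subgroup G) (o : Fin n) (u : Fin n → F) : Prop :=
  B u (ev F o) = 0 ∧ ∀ s, Cnd B (ev F o) u s → H.E (ev F o) u s ∈ T

theorem ok_of (hZ : ∀ c, σ c = c → H.E (ev F o) 0 c ∈ T) (h : Cnd B (ev F o) u s)
    (hm : H.E (ev F o) u s ∈ T) : H.Ok T o u := ⟨h.perp, fun s' h' => by
  have e : σ (s' - s) = s' - s := by
    rw [map_sub]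
    linear_combination h.eq - h'.eq
  have := H.E_mul_zero h e
  rw [add_sub_cancel] at this
  exact this ▸ mul_mem hm (hZ _ e)⟩

theorem ok_add (ho' : o < o.rev) (hZ : ∀ c, σ c = c → H.E (ev F o) 0 c ∈ T) (h : H.Ok T o u)
    (h' : H.Ok T o v) : H.Ok T o (u + v) := by
  obtain ⟨s, hs⟩ := H.tr u
  obtain ⟨s', hs'⟩ := H.tr v
  have c : Cnd B (ev F o) u s := ⟨H.ev_ev ho'.ne, h.1, hs⟩
  have c' : Cnd B (ev F o) v s' := ⟨H.ev_ev ho'.ne, h'.1, hs'⟩
  exact H.ok_of hZ (H.cnd_add c c') (H.E_mul c c' ▸ mul_mem (h.2 _ c) (h'.2 _ c'))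

theorem ok_cancel (ho' : o < o.rev) (h : H.Ok T o u)
    (h' : H.Ok T o (u + v)) : H.Ok T o v := by
  have e : B v (ev F o) = 0 := by simpa [h.1] using h'.1
  refine ⟨e, fun s' c' => ?_⟩
  obtain ⟨s, hs⟩ := H.tr u
  have c : Cnd B (ev F o) u s := ⟨H.ev_ev ho'.ne, h.1, hs⟩
  exact (mul_mem_cancel_left (h.2 _ c)).1 (H.E_mul c c' ▸ h'.2 _ (H.cnd_add c c'))

theorem ok_map (ho : o.val = 0) (ho' : o < o.rev) (hT : IsStronglyClosed T (uG φ id))
    (hZ : ∀ c, σ c = c → H.E (ev F o) 0 c ∈ T) (h : H.Ok T o u)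
    (hg : mx φ g *ᵥ ev F o = ev F o) : H.Ok T o (mx φ g *ᵥ u) := by
  obtain ⟨s, hs⟩ := H.tr u
  have c : Cnd B (ev F o) u s := ⟨H.ev_ev ho'.ne, h.1, hs⟩
  obtain ⟨h1, h2⟩ := H.stab_mem ho ho' hT c (h.2 _ c) hg
  exact H.ok_of hZ h1 h2

theorem le_of_tv (ho : o.val = 0) (hok : o < k) (hk : k < k.rev)
    (hT : IsStronglyClosed T (uG φ id)) (hZ : ∀ c, σ c = c → H.E (ev F o) 0 c ∈ T) :
    uG φ id ≤ T := by
  have hko : k.rev < o.rev := Fin.rev_lt_rev.2 hok
  have ho' : o < o.rev := hok.trans (hk.trans hko)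
  have hz := H.ev_ev ho'.ne
  have hzk := H.ev_ev hk.ne
  have e1 : B (ev F k) (ev F o) = 0 := H.ev_ev (hk.trans hko).ne
  have e2 : B (ev F o) (ev F k) = 0 := H.zero_symm e1
  have e3 : B (ev F o) (ev F k.rev) = 0 := H.ev_ev (by rw [Fin.rev_rev]; exact hok.ne)
  have e4 : B (ev F k.rev) (ev F k.rev) = 0 := H.ev_ev (by rw [Fin.rev_rev]; exact hk.ne')
  have e5 : B (ev F k) (ev F k.rev) = 1 := by rw [H.sing_rev hk, ev_self]
  have B1 : ∀ (g : G) c, σ c = c → H.E (mx φ g *ᵥ ev F o) 0 c ∈ uG φ id →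
      H.E (mx φ g *ᵥ ev F o) 0 c ∈ T := fun g c hc => by
    have := H.conj_mem hT (cnd_zero hz hc) (hZ c hc) g
    rwa [mulVec_zero] at this
  have B2 : ∀ a : F, H.Ok T o (a • ev F k) := fun a => by
    have c1 : Cnd B (ev F o) (a • ev F k) 1 := ⟨hz, by simp [e1], by simp [hzk]⟩
    have hN : σ (a * σ a) = a * σ a := by rw [map_mul, H.inv, mul_comm]
    have c2 : Cnd B (ev F k) 0 (a * σ a) := cnd_zero hzk hN
    have c3 : Cnd B (ev F o + a • ev F k) 0 1 := cnd_zero (by simp [hz, hzk, e1, e2]) (map_one σ)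
    have e : H.E (ev F o + a • ev F k) 0 1 =
        H.E (ev F o) (a • ev F k) 1 * H.E (ev F k) 0 (a * σ a) := mx_ext H.inj fun x => by
      rw [mx_mul_mulVec, H.E_apply c1, H.E_apply c2, H.E_apply c3]
      simp only [map_add, LinearMap.add_apply, map_smul, LinearMap.smul_apply,
        LinearMap.map_smulₛₗ, smul_eq_mul, hzk, e1, map_zero, LinearMap.zero_apply]
      module
    have m2 := H.E_mem hk c2 fun _ _ => rfl
    obtain ⟨g, hg⟩ := H.orbit ho' hk
    have t2 := B1 g _ hN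
    rw [hg] at t2
    have t3 := B1 (H.X k o a) 1 (map_one σ)
    rw [H.X_apply hk ho' hok.ne', ev_self, ev_ne (hok.trans hk).ne', mul_one, mul_zero, zero_smul,
      sub_zero, e] at t3
    exact H.ok_of hZ c1 ((mul_mem_cancel_right (t2 m2)).1 (t3 (mul_mem (H.E_mem_o ho ho' c1) m2)))
  have B3 : ∀ a : F, H.Ok T o (a • ev F k.rev) := fun a => by
    have c : Cnd B (ev F k.rev) 0 1 := cnd_zero e4 (map_one σ)
    have := H.ok_map ho ho' hT hZ (B2 a) (H.E_fix c (by simp) e3)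
    rw [H.E_apply c] at this
    simp only [map_zero, zero_smul, smul_zero, add_zero, map_smul, LinearMap.smul_apply, e5,
      one_mul, smul_eq_mul, mul_one] at this
    exact H.ok_cancel ho' (B2 a) this
  have B4 : ∀ v : Fin n → F, v o.rev = 0 → v k = 0 → H.Ok T o v := fun v h1 h2 => by
    obtain ⟨s, hs⟩ := H.tr v
    have c : Cnd B (ev F k.rev) v s := ⟨e4, by rw [H.sing_rev hk, h2], hs⟩
    have := H.ok_map ho ho' hT hZ (B2 1) (H.E_fix c (H.ev_left h1) e3)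
    rw [one_smul, H.E_apply c, e5] at this
    refine H.ok_cancel ho' (H.ok_add ho' hZ (B2 1) (B3 (B (ev F k) v + s))) ?_
    convert this using 1
    module
  have B5 : ∀ u s, Cnd B (ev F o) u s → H.E (ev F o) u s ∈ T := fun u s c => by
    have := H.ok_add ho' hZ (B2 (u k)) (B4 (u - u k • ev F k)
      (by simp [H.ev_right_iff.1 c.perp, ev_ne (hk.trans hko).ne']) (by simp [ev_self]))
    rw [add_sub_cancel] at this
    exact this.2 s c
  refine H.le_of_E fun j u s hj c hS => ?_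
  obtain ⟨g, hg⟩ := H.orbit ho' hj
  have c' := H.cnd_map c g⁻¹
  rw [mx_inv_of_eq hg] at c'
  have := H.conj_mem hT c' (B5 _ _ c') g
  rw [hg, mx_mulVec_inv] at this
  exact this hS

theorem exists_tv_of_two (hn : (∃ a : F, a ≠ 0 ∧ a ≠ 1) ∨ 5 ≤ n) (ho : o.val = 0)
    (ho' : o < o.rev) (hT : IsStronglyClosed T (uG φ id)) (h2 : ∀ c, c + σ c = 0)
    (h : Cnd B (ev F o) u s) (hm : H.E (ev F o) u s ∈ T) (hi : u i ≠ 0) (hio : i ≠ o) :
    ∃ c, σ c = c ∧ c ≠ 0 ∧ H.E (ev F o) 0 c ∈ T := by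
  have two : (2 : F) = 0 := by
    have := h2 1
    rw [map_one] at this
    linear_combination this
  have hσ : ∀ c, σ c = c := fun c => by linear_combination h2 c - c * two
  have alt : ∀ v, B v v = 0 := fun v => by
    obtain ⟨t, ht⟩ := H.tr v
    rw [← ht, hσ, sub_self]
  have hz := alt (ev F o)
  have cnd : ∀ v s, B v (ev F o) = 0 → Cnd B (ev F o) v s := fun v s hv =>
    ⟨hz, hv, by rw [hσ, sub_self, alt]⟩
  let A : (Fin n → F) → Prop := fun v => B v (ev F o) = 0 ∧ H.E (ev F o) v s ∈ T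
  have step : ∀ v w, A v → B w (ev F o) = 0 → B v w ≠ 0 → A w := fun v w hv hw hvw => by
    have c : Cnd B (v + w) 0 (B v w)⁻¹ := cnd_zero (alt _) (hσ _)
    have := (H.stab_mem ho ho' hT (cnd _ _ hv.1) hv.2 (H.E_fix c (by simp)
      (H.zero_symm (by simp [hv.1, hw])))).2
    rw [H.E_apply c] at this
    refine ⟨hw, ?_⟩
    convert this using 2
    simp only [map_zero, zero_smul, smul_zero, add_zero, map_add, alt, zero_add,
      inv_mul_cancel₀ hvw, one_smul]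
    rw [← add_assoc, ← two_smul F v, two, zero_smul, zero_add]
  have tri : ∀ v w, A v → A w → A (v + w) → H.E (ev F o) 0 (s + B w v) ∈ T :=
    fun v w hv hw hvw => by
      have e1 := H.E_mul (cnd v s hv.1) (cnd w s hw.1)
      have e2 := H.E_mul_zero (cnd _ s hvw.1) (hσ (s + B w v))
      rw [← add_assoc, ← e1] at e2
      exact (mul_mem_cancel_left hvw.2).1 (e2 ▸ mul_mem hv.2 hw.2)
  have diff : ∀ c d, H.E (ev F o) 0 c ∈ T → H.E (ev F o) 0 (c + d) ∈ T →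
      H.E (ev F o) 0 d ∈ T := fun c d hc hd => by
    have := H.E_mul_zero (cnd_zero hz (hσ c)) (hσ d)
    exact (mul_mem_cancel_left hc).1 (this ▸ hd)
  have hA : A u := ⟨h.perp, hm⟩
  have hio' : i ≠ o.rev := fun e => hi (e ▸ H.ev_right_iff.1 h.perp)
  have p1 : B (ev F i.rev) (ev F o) = 0 := H.ev_ev (Fin.rev_injective.ne hio)
  have hβ : B u (ev F i.rev) ≠ 0 := by
    rw [H.sing, Fin.rev_rev]
    exact mul_ne_zero (H.ne _) hi
  have hβ' : B (ev F i.rev) u ≠ 0 := fun e => hβ (H.zero_symm e)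
  have t : ∀ a : F, a ≠ 0 → H.E (ev F o) 0 (s + a * B (ev F i.rev) u) ∈ T := fun a ha => by
    have q1 : B (a • ev F i.rev) (ev F o) = 0 := by simp [p1]
    have q2 : B u (a • ev F i.rev) ≠ 0 := by simp [hβ, ha]
    simpa using tri u _ hA (step _ _ hA q1 q2)
      (step _ _ hA (by simp [p1, h.perp]) (by simpa [alt] using ⟨ha, hβ⟩))
  rcases hn with ⟨a, ha, ha1⟩ | hn
  · refine ⟨(a - 1) * B (ev F i.rev) u, hσ _, mul_ne_zero (sub_ne_zero.2 ha1) hβ',
      diff _ _ (t 1 one_ne_zero) ?_⟩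
    convert t a ha using 2
    ring
  · obtain ⟨l, -, hl⟩ := Finset.exists_mem_notMem_of_card_lt_card
      (s := {o, o.rev, i, i.rev}) (t := (Finset.univ : Finset (Fin n)))
      (lt_of_le_of_lt Finset.card_le_four (by simp only [Finset.card_univ, Fintype.card_fin]; omega))
    simp only [Finset.mem_insert, Finset.mem_singleton, not_or] at hl
    obtain ⟨l1, l2, l3, l4⟩ := hl
    have nz : ∀ j : Fin n, B (ev F j.rev) (ev F j) ≠ 0 := fun j => by
      rw [H.sing, ev_self, mul_one]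
      exact H.ne j
    have pi : B (ev F i) (ev F o) = 0 := H.ev_ev hio'
    have pl : B (ev F l) (ev F o) = 0 := H.ev_ev l2
    have a1 : A (ev F i.rev) := step _ _ hA p1 hβ
    have a2 : A (ev F i) := step _ _ a1 pi (nz i)
    have a3 : A (ev F i + ev F l) := step _ _ a1 (by simp [pi, pl])
      (by simpa [H.ev_ev (Fin.rev_injective.ne (Ne.symm l3))] using nz i)
    have a4 : A (ev F l.rev) := step _ _ a3 (H.ev_ev (Fin.rev_injective.ne l1)) (by
      rw [H.sing, Fin.rev_rev, Pi.add_apply, ev_ne l3, ev_self, zero_add, mul_one]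
      exact H.ne _)
    have a5 : A (ev F l) := step _ _ a4 pl (nz l)
    have := tri _ _ a2 a5 a3
    rw [H.ev_ev l4, add_zero] at this
    exact ⟨1 * B (ev F i.rev) u, hσ _, by simpa using hβ', diff _ _ this (t 1 one_ne_zero)⟩

theorem sc [Finite F] (hn : 4 ≤ n)
    (hex : (∀ c, c + σ c = 0) → (∃ a : F, a ≠ 0 ∧ a ≠ 1) ∨ 5 ≤ n) :
    ∀ z ∈ uG φ id, z ≠ 1 → (∀ s ∈ uG φ id, s * z = z * s) →
      ∀ T, IsStronglyClosed T (uG φ id) → z ∈ T → uG φ id ≤ T := by
  intro z hz h1 hc T hT hzT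
  obtain ⟨k, hk0⟩ : ∃ k : Fin n, k.val = 1 := ⟨⟨1, by omega⟩, rfl⟩
  obtain ⟨o, ho⟩ : ∃ o : Fin n, o.val = 0 := ⟨⟨0, by omega⟩, rfl⟩
  have hk : k < k.rev := lt_rev_iff.2 (by omega)
  have ho' : o < o.rev := lt_rev_iff.2 (by omega)
  have hok : o < k := by rw [Fin.lt_def]; omega
  suffices h : ∃ c, σ c = c ∧ c ≠ 0 ∧ H.E (ev F o) 0 c ∈ T by
    obtain ⟨c, hc1, hc2, hc3⟩ := h
    exact H.le_of_tv ho hok hk hT fun d hd => H.all_tv ho hok hk hT hc1 hc2 hc3 hd
  obtain ⟨u, s, c, hu, hf⟩ := H.exists_E ho' (uG_le_pG hz) (fun i hi => by omega)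
    (diag_of_mem_uG hz o)
  have hb := mul_mem (inv_mem (H.E_mem_bZ ho ho' c))
    (H.cent_bZ ho ho' z hz fun r hr => hc r (uG_le_uG_id bZ_mono hr))
  have e : (H.E (ev F o) u s)⁻¹ * z = 1 := H.inj (Units.ext (Matrix.ext fun r j => by
    change mx φ _ r j = mx φ 1 r j
    rw [mx_one]
    have hf' := (hf o (by omega) ho').2
    by_cases hr : r = o
    · exact hr ▸ H.row_of_fix' hf' j
    by_cases hj : j = o.rev
    · exact hj ▸ col_of_fix hf' r
    refine mem_uG.1 hb r j ?_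
    rw [Fin.ext_iff] at hr hj
    rw [Fin.val_rev] at hj
    unfold bZ
    split_ifs <;> omega))
  obtain rfl := inv_mul_eq_one.1 e
  by_cases hu0 : u = 0
  · subst hu0
    refine ⟨s, (sub_eq_zero.1 (by simpa using c.eq)).symm, ?_, hzT⟩
    rintro rfl
    exact h1 (H.E_zero c.iso)
  obtain ⟨i, hi⟩ := Function.ne_iff.1 hu0
  have hio : i ≠ o := fun e => hi (hu i (Or.inl e.le))
  have hβ : B u (ev F i.rev) ≠ 0 := by
    rw [H.sing, Fin.rev_rev]
    exact mul_ne_zero (H.ne _) hi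
  have h2 : ∀ d, d + σ d = 0 := fun d => by
    obtain ⟨s', hs'⟩ := H.tr (σ (d / B u (ev F i.rev)) • ev F i.rev)
    have c' : Cnd B (ev F o) (σ (d / B u (ev F i.rev)) • ev F i.rev) s' :=
      ⟨c.iso, by simp [H.ev_ev (Fin.rev_injective.ne hio)], hs'⟩
    have := hc _ (H.E_mem_o ho ho' c')
    rw [H.E_mul c c', H.E_mul c' c, add_comm u] at this
    have c1 := H.cnd_add c c'
    rw [add_comm u] at c1
    have e1 := H.E_inj ho' (H.cnd_add c' c) c1 this
    have e2 := H.skew u (σ (d / B u (ev F i.rev)) • ev F i.rev)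
    rw [LinearMap.map_smulₛₗ, H.inv, smul_eq_mul, div_mul_cancel₀ _ hβ] at e1 e2
    linear_combination e1 + e2
  exact H.exists_tv_of_two (hex h2) ho ho' hT h2 c hzT hi hio

theorem good [Finite F] [Finite G] {p : ℕ} [Fact p.Prime] [CharP F p] (hn : 4 ≤ n)
    (hex : (∀ c, c + σ c = 0) → (∃ a : F, a ≠ 0 ∧ a ≠ 1) ∨ 5 ≤ n) : Good p (uG φ id) :=
  H.full.good H.inj (by omega) (H.sc hn hex) (H.aut hn)

theorem not_le_center (hn : 2 ≤ n) : ¬ uG φ id ≤ center G := fun h => by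
  obtain ⟨o, ho⟩ : ∃ o : Fin n, o.val = 0 := ⟨⟨0, by omega⟩, rfl⟩
  have ho' : o < o.rev := lt_rev_iff.2 (by omega)
  have c : Cnd B (ev F o) 0 1 := cnd_zero (H.ev_ev ho'.ne) (map_one σ)
  have c' : Cnd B (ev F o.rev) 0 1 :=
    cnd_zero (H.ev_ev (by rw [Fin.rev_rev]; exact ho'.ne')) (map_one σ)
  have e := congrArg (fun g => (mx φ g *ᵥ ev F o) o)
    (mem_center_iff.1 (h (H.E_mem_o ho ho' c)) (H.E (ev F o.rev) 0 1))
  simp only [mx_mul_mulVec, H.E_apply c, H.E_apply c', H.sing_lt ho', H.sing_rev ho'] at e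
  simp [ev_self, ev_ne ho'.ne, ev_ne ho'.ne'] at e

end Sk

theorem isSimple_quot_center [Finite G] {p : ℕ} [Fact p.Prime] {S : Subgroup G} (h : Good p S)
    (hS : ¬ S ≤ center G) {G' : Type*} [Group G'] (e : G' ≃* G) (P : Sylow p (G' ⧸ center G')) :
    (groupFusionSystem (P : Subgroup (G' ⧸ center G'))).IsSimple p := by
  have : Finite G' := Finite.of_equiv _ e.symm.toEquiv
  refine (h.map (QuotientGroup.mk'_surjective (center G)) ?_).isSimple_sylow
    (centerQuotCongr e) P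
  rw [QuotientGroup.ker_mk']
  refine (h.sc _ ⟨inf_le_right, fun x hx g hg => ⟨?_, hg⟩⟩).resolve_right fun e =>
    hS (e ▸ inf_le_left)
  rw [mem_center_iff.1 hx.1 g, mul_inv_cancel_right]
  exact hx.1

end Cfsg.Agent.Fus.LF
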