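import Mathlib
import Cfsg.Agent.Fus.LieSkew3
import Cfsg.Agent.Cl.UModel
import Cfsg.Agent.Cl.LinearTransv

/-! The fusion systems of the symplectic and unitary groups in defining characteristic. -/

set_option autoImplicit false

namespace Cfsg.Agent.Fus.LF

open Matrix Subgroup Cl SC

variable {F : Type*} [Field F] {σ : F →+* F} {n : ℕ} {ε : Fin n → F}

/-- The antidiagonal Gram matrix. -/
def aM (ε : Fin n → F) : Matrix (Fin n) (Fin n) F := of fun i j => if i = j.rev then ε j else 0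

theorem aM_form (x y : Fin n → F) :
    uMatForm σ (aM ε) x y = ∑ j, ε j * x j.rev * σ (y j) := by
  rw [uMatForm_apply, dotProduct_mulVec, dotProduct]
  refine Finset.sum_congr rfl fun j _ => ?_
  simp [vecMul, dotProduct, aM, mul_comm]

theorem aM_det (h : ∀ j, ε j ≠ 0) : (aM ε).det ≠ 0 := by
  have : aM ε * (of fun i j => if j = i.rev then (ε i)⁻¹ else 0) = 1 := by
    ext i j
    rw [mul_apply, Finset.sum_eq_single i.rev]
    · simp [aM, one_apply, h, eq_comm]
    · intro k _ hk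
      have : i ≠ k.rev := fun e => hk (by rw [e, Fin.rev_rev])
      simp [aM, this]
    · simp
  exact left_ne_zero_of_mul_eq_one (by rw [← det_mul, this, det_one])

/-- The inclusion in `GL`. -/
abbrev suφ (σ : F →+* F) (M : Matrix (Fin n) (Fin n) F) : uMatSU σ M →* GL (Fin n) F :=
  SpecialLinearGroup.toGL.comp (uMatSU σ M).subtype

theorem sk_of (inv : ∀ a, σ (σ a) = a) (hε : ∀ j, σ (ε j) = -ε j.rev)
    (lt : ∀ j : Fin n, j < j.rev → ε j = -1) (gt : ∀ j : Fin n, j.rev < j → ε j = 1)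
    (ne : ∀ j, ε j ≠ 0) (tr : ∀ v, ∃ s, s - σ s = uMatForm σ (aM ε) v v)
    (mid : ∀ (d : F) (i : Fin n), i.rev = i → ∃ c : F, d - σ d = c * σ c * ε i) :
    Sk (suφ σ (aM ε)) (uMatForm σ (aM ε)) ε := by
  have skew : ∀ x y, σ (uMatForm σ (aM ε) x y) = -uMatForm σ (aM ε) y x := fun x y => by
    rw [aM_form, aM_form, map_sum, ← Finset.sum_neg_distrib, ← Equiv.sum_comp Fin.revPerm]
    refine Finset.sum_congr rfl fun j _ => ?_
    simp only [map_mul, hε, inv, Fin.revPerm_apply, Fin.rev_rev]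
    ring
  have sing : ∀ x j, uMatForm σ (aM ε) x (ev F j) = ε j * x j.rev := fun x j => by
    rw [aM_form, Finset.sum_eq_single j, ev_self, map_one, mul_one]
    · intro k _ hk
      rw [ev_ne hk, map_zero, mul_zero]
    · simp
  refine ⟨inv, skew, sing, lt, gt, ne, tr, fun d i hi => ?_,
    SpecialLinearGroup.toGL_injective.comp Subtype.val_injective, fun g x y => ?_,
    fun g => g.1.2, fun z u s h => ?_⟩
  · obtain ⟨c, hc⟩ := mid d i hi
    refine ⟨c, ?_⟩
    simp only [map_smul, LinearMap.smul_apply, LinearMap.map_smulₛₗ, smul_eq_mul, sing, hi, ev_self]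
    rw [hc]
    ring
  · rw [uMatForm_apply, uMatForm_apply]
    exact (u_preserves_iff _ _).2 g.2 x y
  · generalize hB : uMatForm σ (aM ε) = B at h skew
    have hw : ∀ w x, (aM ε *ᵥ (σ ∘ w)) ⬝ᵥ x = B x w := fun w x => by
      rw [← hB, uMatForm_apply, dotProduct_comm]
    have p' : B z u = 0 := by
      have := skew u z
      rw [h.perp, map_zero] at this
      exact neg_eq_zero.1 this.symm
    have d1 : (aM ε *ᵥ (σ ∘ u) + (s - B u u) • aM ε *ᵥ (σ ∘ z)) ⬝ᵥ z = 0 := by
      simp [hw, p', h.iso]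
    have d2 : (aM ε *ᵥ (σ ∘ z)) ⬝ᵥ u = 0 := by rw [hw, h.perp]
    have e : ∀ x, ((tv z (aM ε *ᵥ (σ ∘ u) + (s - B u u) • aM ε *ᵥ (σ ∘ z)) *
        tv u (aM ε *ᵥ (σ ∘ z)) : SpecialLinearGroup (Fin n) F) : Matrix (Fin n) (Fin n) F) *ᵥ x =
        x + B x u • z + B x z • u + (s * B x z) • z := fun x => by
      refine (mx_mul_mulVec (φ := SpecialLinearGroup.toGL) _ _ x).trans ?_
      refine (tv_mulVec d1 _).trans ?_
      rw [show mx SpecialLinearGroup.toGL (tv u (aM ε *ᵥ (σ ∘ z))) *ᵥ x = _ from tv_mulVec d2 x]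
      simp only [add_dotProduct, smul_dotProduct, hw, map_add, LinearMap.add_apply, map_smul,
        LinearMap.smul_apply, smul_eq_mul, h.perp]
      module
    refine ⟨⟨tv z (aM ε *ᵥ (σ ∘ u) + (s - B u u) • aM ε *ᵥ (σ ∘ z)) * tv u (aM ε *ᵥ (σ ∘ z)),
      (u_preserves_iff _ _).1 fun x y => ?_⟩, e⟩
    rw [← uMatForm_apply, ← uMatForm_apply, hB, e, e]
    simp only [map_add, LinearMap.add_apply, map_smul, LinearMap.smul_apply,
      LinearMap.map_smulₛₗ, smul_eq_mul, h.perp, h.iso, p', map_mul, skew]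
    linear_combination B x z * B z y * h.eq

/-- The signs of the Gram matrix. -/
def sg (θ : F) (j : Fin n) : F := if j < j.rev then -1 else if j.rev < j then 1 else θ

theorem sg_lt (θ : F) (j : Fin n) (h : j < j.rev) : sg θ j = -1 := if_pos h

theorem sg_gt (θ : F) (j : Fin n) (h : j.rev < j) : sg θ j = 1 := by
  rw [sg, if_neg h.not_gt, if_pos h]

theorem sg_eq (θ : F) {j : Fin n} (h : j.rev = j) : sg θ j = θ := by
  simp [sg, h]

theorem sg_ne {θ : F} (h : θ ≠ 0) (j : Fin n) : sg θ j ≠ 0 := by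
  unfold sg
  split_ifs <;> simp [h]

theorem map_sg {θ : F} (j : Fin n) (h : j.rev = j → σ θ = -θ) : σ (sg θ j) = -sg θ j.rev := by
  rcases lt_trichotomy j j.rev with e | e | e
  · rw [sg_lt θ j e, sg_gt θ j.rev (by rwa [Fin.rev_rev]), map_neg, map_one]
  · rw [← e, sg_eq θ e.symm, h e.symm]
  · rw [sg_gt θ j e, sg_lt θ j.rev (by rwa [Fin.rev_rev]), neg_neg, map_one]

theorem psu_isSimple {q : ℕ} (h : UField σ q) (hn : 4 ≤ n) {p : ℕ} [Fact p.Prime] [CharP F p]
    (P : Sylow p (PSU n F q)) : (groupFusionSystem (P : Subgroup (PSU n F q))).IsSimple p := by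
  have := h.finite
  have hi := h.invol
  obtain ⟨θ, h0, hθ⟩ := hi.exists_trace_zero
  obtain ⟨b, hb⟩ := hi.exists_trace_one
  have hε : ∀ j : Fin n, σ (sg θ j) = -sg θ j.rev := fun j => map_sg j fun _ => hθ
  have H : Sk (suφ σ (aM (sg θ))) (uMatForm σ (aM (sg θ))) (sg (n := n) θ) := by
    refine sk_of hi.invol hε (sg_lt θ) (sg_gt θ) (sg_ne h0) (fun v => ?_) fun d i hd => ?_
    · refine ⟨b * uMatForm σ (aM (sg θ)) v v, ?_⟩
      have : σ (uMatForm σ (aM (sg θ)) v v) = -uMatForm σ (aM (sg θ)) v v := by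
        rw [aM_form, map_sum, ← Finset.sum_neg_distrib, ← Equiv.sum_comp Fin.revPerm]
        refine Finset.sum_congr rfl fun j _ => ?_
        simp only [map_mul, hε, hi.invol, Fin.revPerm_apply, Fin.rev_rev]
        ring
      rw [map_mul, this]
      linear_combination uMatForm σ (aM (sg θ)) v v * hb
    · obtain ⟨c, hc⟩ := h.exists_norm_eq (a := (d - σ d) / θ) (by
        rw [map_div₀, map_sub, hi.invol, hθ, div_neg, ← neg_div, neg_sub])
      exact ⟨c, by rw [hc, sg_eq θ hd, div_mul_cancel₀ _ h0]⟩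
  obtain ⟨e⟩ := h.nonempty_uMatSU_equiv (M := θ • aM (sg (n := n) θ)) (by
    ext i j
    simp only [map_apply, Matrix.smul_apply, transpose_apply, aM, of_apply, smul_eq_mul, map_mul,
      hθ]
    by_cases e : i = j.rev
    · simp [e, hε]
    · have : j ≠ i.rev := fun e' => e (by rw [e', Fin.rev_rev])
      simp [e, this]) (by
    rw [det_smul]
    exact mul_ne_zero (pow_ne_zero _ h0) (aM_det (sg_ne h0)))
  rw [uMatSU_smul _ h0] at e
  refine isSimple_quot_center (H.good hn fun h2 => ?_) (H.not_le_center (by omega)) e.symm P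
  rw [h2 b] at hb
  exact absurd hb zero_ne_one

/-- The ordering of the standard symplectic basis. -/
def spIdx (m : ℕ) : Fin m ⊕ Fin m ≃ Fin (m + m) :=
  (Equiv.sumCongr (Equiv.refl _) Fin.revPerm).trans finSumFinEquiv

theorem spIdx_inl {m : ℕ} (i : Fin m) : (spIdx m (.inl i)).val = i.val := by simp [spIdx]

theorem spIdx_inr {m : ℕ} (i : Fin m) : (spIdx m (.inr i)).val = m + (m - (i.val + 1)) := by
  simp [spIdx, add_comm]

theorem aM_spIdx (m : ℕ) :
    (aM (sg (1 : F))).submatrix (spIdx m) (spIdx m) = -J (Fin m) F := by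
  ext (i | i) (j | j) <;>
    simp only [submatrix_apply, aM, of_apply, Fin.ext_iff, Fin.val_rev, spIdx_inl, spIdx_inr,
      J, Matrix.neg_apply, fromBlocks_apply₁₁, fromBlocks_apply₁₂, fromBlocks_apply₂₁,
      fromBlocks_apply₂₂, Matrix.zero_apply, one_apply, neg_zero, neg_neg, sg, Fin.lt_def] <;>
    have := i.2 <;> have := j.2 <;> split_ifs <;> first | omega | simp

theorem sp_iff {m : ℕ} (A : Matrix (Fin (m + m)) (Fin (m + m)) F) :
    Aᵀ * aM (sg 1) * A.map (RingHom.id F) = aM (sg 1) ↔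
      A.submatrix (spIdx m) (spIdx m) ∈ symplecticGroup (Fin m) F := by
  rw [SymplecticGroup.mem_iff', ← (reindex (spIdx m).symm (spIdx m).symm).injective.eq_iff]
  simp only [reindex_apply, Equiv.symm_symm, RingHom.coe_id, Matrix.map_id]
  rw [← submatrix_mul_equiv _ _ _ (spIdx m), ← submatrix_mul_equiv _ _ _ (spIdx m), aM_spIdx,
    Matrix.mul_neg, Matrix.neg_mul, neg_inj, transpose_submatrix]

/-- The symplectic group in the antidiagonal model. -/
noncomputable def spEquivSU (m : ℕ) (F : Type*) [Field F] : symplecticGroup (Fin m) F ≃*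
    uMatSU (RingHom.id F) (aM (sg (n := m + m) (1 : F))) where
  toFun A := ⟨⟨A.1.submatrix (spIdx m).symm (spIdx m).symm, by
    rw [det_submatrix_equiv_self, SymplecticGroup.det_eq_one A.2]⟩,
    (sp_iff _).2 (by simp)⟩
  invFun g := ⟨(g.1 : Matrix _ _ F).submatrix (spIdx m) (spIdx m), (sp_iff _).1 (mem_uMatSU.1 g.2)⟩
  left_inv A := Subtype.ext (by simp)
  right_inv g := Subtype.ext (Subtype.ext (by simp))
  map_mul' A B := Subtype.ext (Subtype.ext (submatrix_mul_equiv A.1 B.1 _ (spIdx m).symm _).symm)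

theorem psp_isSimple [Finite F] {m : ℕ} (hm : 2 ≤ m) (hex : m = 2 → ∃ a : F, a ≠ 0 ∧ a ≠ 1)
    {p : ℕ} [Fact p.Prime] [CharP F p] (P : Sylow p (PSp m F)) :
    (groupFusionSystem (P : Subgroup (PSp m F))).IsSimple p := by
  have nm : ∀ j : Fin (m + m), j.rev ≠ j := fun j => by
    rw [Ne, Fin.ext_iff, Fin.val_rev]
    omega
  have hε : ∀ j : Fin (m + m), RingHom.id F (sg 1 j) = -sg 1 j.rev :=
    fun j => map_sg j fun h => absurd h (nm j)
  have H : Sk (suφ (RingHom.id F) (aM (sg 1))) (uMatForm (RingHom.id F) (aM (sg 1)))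
      (sg (n := m + m) (1 : F)) := by
    refine sk_of (fun _ => rfl) hε (sg_lt 1) (sg_gt 1) (sg_ne one_ne_zero) (fun v => ⟨0, ?_⟩)
      fun d i hd => absurd hd (nm i)
    rw [aM_form, map_zero, sub_zero, eq_comm]
    refine Finset.sum_involution (fun j _ => j.rev) (fun j _ => ?_) (fun j _ _ => nm j)
      (fun _ _ => Finset.mem_univ _) fun j _ => Fin.rev_rev j
    have := hε j
    simp only [RingHom.id_apply, Fin.rev_rev] at this ⊢
    rw [this]
    ring
  refine isSimple_quot_center (H.good (by omega) fun _ => ?_) (H.not_le_center (by omega))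
    (spEquivSU m F) P
  by_cases h : m = 2
  · exact Or.inl (hex h)
  · exact Or.inr (by omega)

end Cfsg.Agent.Fus.LF
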