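import Mathlib
import Cfsg.Agent.Fus.MxMain
import Cfsg.Agent.Fus.ModelExists

/-! All saturated fusion systems on dihedral, quaternion, semidihedral and wreathed `2`-groups
are realizable. -/

set_option autoImplicit false
set_option linter.unusedSectionVars false

namespace Cfsg.Agent.Fus.MG

open Subgroup Cfsg.FusionSystem Cfsg.Agent.Inv Cfsg.Agent.Inv.Fz Matrix

universe u

local instance : Fact (Nat.Prime 2) := ⟨Nat.prime_two⟩

theorem q_sq {G : Type*} [Group G] {S : Subgroup G} {t : ℕ} {r s : R2 t → G}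
    (H : Mx S t (-1) (hh t) r s) (j : R2 t) : s j * s j = r (hh t) := by
  rw [H.s_sq]; congr 1; ring

theorem q_odd {G : Type*} [Group G] [Finite G] {T : Sylow 2 G} {t : ℕ} {r s : R2 t → G}
    (H : Mx (T : Subgroup G) t (-1) (hh t) r s) (ht : 2 ≤ t) {j : R2 t}
    (hj : s j ∈ pResidual 2 G) : OddAut (H.sub 2 j) := by
  by_contra h
  refine ((H.s_mem_max (by omega)).1 (H.inf_pResidual_le'
    (Y := H.sub (2 ^ (t - 1)) (j + 1)) ((H.r_mem_max (by omega)).2 ⟨1, by simp⟩)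
    (fun i hi _ => absurd ((q_sq H i).symm.trans hi) H.z_ne_one) (fun i _ ho => ?_)
    ⟨H.s_mem j, hj⟩)).elim fun y hy => even_ne_odd 0 y (by linear_combination hy)
  obtain ⟨y, hy | hy⟩ := r2_even_or_odd (i - j)
  · obtain rfl : i = j + 2 * y := by linear_combination hy
    exact absurd ((H.oddAut_even y).1 ho) h
  · obtain rfl : i = j + 1 + 2 * y := by linear_combination hy
    have := H.sub_le_max (e := 1) ht (j + 1 + 2 * y)
    rwa [H.max_even (by omega), pow_one] at this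

theorem q_norm {G : Type*} [Group G] {S : Subgroup G} {t : ℕ} {r s : R2 t → G}
    (H : Mx S t (-1) (hh t) r s) (p : Subgroup G → Prop)
    (hp : ∀ j y, p (H.sub 2 (j + 2 * y)) ↔ p (H.sub 2 j)) (h1 : ∃ j, p (H.sub 2 j))
    (h2 : ¬ ∀ j, p (H.sub 2 j)) :
    ∃ (s : R2 t → G) (H : Mx S t (-1) (hh t) r s), ∀ j, p (H.sub 2 j) ↔ ∃ y, j = 2 * y := by
  obtain ⟨a, ha⟩ := h1
  have H' : Mx S t (-1) (hh t) r fun i => s (i + a) := Mc.mxQ ⟨H.rr,
    fun i j => by rw [H.rs, add_assoc],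
    fun i j => by rw [H.sr]; congr 1; ring, fun i j => by rw [H.ss]; congr 1; ring,
    fun x => (H.mem x).trans (or_congr_right ⟨fun ⟨i, e⟩ => ⟨i - a, by simpa using e⟩,
      fun ⟨_, e⟩ => ⟨_, e⟩⟩), H.r_inj, fun _ _ => H.r_ne_s _ _⟩
  have e : ∀ j, H'.sub 2 j = H.sub 2 (j + a) := fun j =>
    H'.ext (H'.sub_le _ _) (H.sub_le _ _) (fun i => H'.r_mem_sub.trans H.r_mem_sub.symm)
      fun i => H'.s_mem_sub.trans (by rw [H.s_mem_sub, add_sub_add_right_eq_sub])
  refine ⟨_, H', fun j => ⟨fun h => ?_, ?_⟩⟩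
  · obtain ⟨y, rfl | rfl⟩ := r2_even_or_odd j
    · exact ⟨y, rfl⟩
    refine absurd (fun j => ?_) h2
    obtain ⟨z, hz | hz⟩ := r2_even_or_odd (j - a)
    · rwa [show j = a + 2 * z by linear_combination hz, hp]
    · rwa [show j = 2 * y + 1 + a + 2 * (z - y) by linear_combination hz, hp, ← e]
  · rintro ⟨y, rfl⟩
    rwa [e, add_comm _ a, hp]

section
variable {K : Type} [Field K]

/-- The diagonal torus of `SL₂`. -/
def dgHom (K : Type) [Field K] : Kˣ →* SpecialLinearGroup (Fin 2) K :=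
  MonoidHom.mk' (fun a => sl (a : K) 0 0 (a⁻¹ : Kˣ) (by simp)) fun a b => Subtype.ext (by
    change _ = (_ * _ : Matrix (Fin 2) (Fin 2) K)
    simp [coe_sl, mul_comm])

theorem coe_dgHom (a : Kˣ) : (dgHom K a).1 = !![(a : K), 0; 0, (a⁻¹ : Kˣ)] := rfl

/-- The elements inverted or fixed, up to sign, by `φ`. -/
def pmFix (φ : SpecialLinearGroup (Fin 2) K →* SpecialLinearGroup (Fin 2) K) :
    Subgroup (SpecialLinearGroup (Fin 2) K) where
  carrier := {g | φ g = g ∨ φ g = -g}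
  one_mem' := Or.inl (map_one φ)
  mul_mem' := by rintro a b (ha | ha) (hb | hb) <;> simp [ha, hb]
  inv_mem' := by rintro a (ha | ha) <;> simp [ha, inv_neg]

theorem neg_ne_sl (h2 : (2 : K) ≠ 0) (g : SpecialLinearGroup (Fin 2) K) : -g ≠ g := fun e => by
  have h1 : (-1 : SpecialLinearGroup (Fin 2) K) = 1 := by
    rw [← mul_inv_cancel g, ← neg_mul, e]
  have := congrFun (congrFun (congrArg Subtype.val h1) 0) 0
  change (-1 : K) = 1 at this
  exact h2 (by linear_combination -this)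

theorem sl_up_pow (n : ℕ) : sl (1 : K) 1 0 1 (by simp) ^ n = sl 1 (n : K) 0 1 (by simp) := by
  induction n with
  | zero => exact Subtype.ext (by simp [coe_sl, one_fin_two])
  | succ n ih =>
    rw [pow_succ, ih]
    exact Subtype.ext (by change (_ * _ : Matrix (Fin 2) (Fin 2) K) = _; simp [coe_sl, add_comm])

theorem sl_low_pow (n : ℕ) : sl (1 : K) 0 (-1) 1 (by simp) ^ n = sl 1 0 (-n : K) 1 (by simp) := by
  induction n with
  | zero => exact Subtype.ext (by simp [coe_sl, one_fin_two])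
  | succ n ih =>
    rw [pow_succ, ih]
    exact Subtype.ext (by change (_ * _ : Matrix (Fin 2) (Fin 2) K) = _; simp [coe_sl, add_comm])

end

theorem half_q_aux {K : Type} [Field K] [Fintype K] {t k q : ℕ} (hodd : Odd (Fintype.card K))
    (hk : Fintype.card K ^ 2 = 2 ^ (t + 1 + 3) * (2 * k + 1) + 1) {c : Kˣ}
    (ho : orderOf c = 2 ^ (t + 2 + 1)) (hc : c ^ 2 ^ (t + 2) = -1) {σ : RingAut K}
    (h1 : σ c = -c) (hqo : Odd q) (hq0 : (q : K) = 0) :
    ∃ (G : Type) (_ : Group G) (_ : Finite G) (T : Sylow 2 G) (r s : R2 (t + 2) → G)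
      (H : Mx (T : Subgroup G) (t + 2) (-1) (hh _) r s),
      ∀ j, OddAut (H.sub 2 j) ↔ ∃ y, j = 2 * y := by
  have h0 : (2 : K) ≠ 0 := Cl.sp_two_ne_zero_of_odd (by rwa [Nat.card_eq_fintype_card])
  have hd : twHom σ 1 (dgHom K c) = -dgHom K c := Subtype.ext (by
    simp [coe_twHom, coe_dgHom, h1, inv_neg])
  have hw : twHom σ 1 (sl 0 1 (-1) 0 (by simp)) = sl 0 1 (-1) 0 (by simp) :=
    Subtype.ext (by simp [coe_twHom, coe_sl])
  have hinj : Function.Injective (dgHom K) := fun a b e =>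
    Units.ext (congrFun (congrFun (congrArg Subtype.val e) 0) 0)
  have hdm : dgHom K c ∈ pmFix (twHom σ 1) := Or.inr hd
  have hwm : sl 0 1 (-1) 0 (by simp) ∈ pmFix (twHom σ 1) := Or.inl hw
  obtain ⟨S, r, s, H, h2, h3⟩ := exists_mc' (G := pmFix (twHom σ 1)) (a := ⟨_, hdm⟩)
    (b := ⟨_, hwm⟩) (t := t + 2) (κ := -1) (μ := 2 ^ (t + 2))
    (by rw [orderOf_mk, orderOf_injective _ hinj, ho]) (fun ⟨i, hi⟩ => by
      have := congrArg Subtype.val hi
      simp only [SubgroupClass.coe_zpow, ← map_zpow] at this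
      have h9 := congrFun (congrFun (congrArg Subtype.val this) 0) 1
      rw [coe_dgHom] at h9
      simp [coe_sl] at h9)
    (Subtype.ext (by
      rw [coe_mul, coe_mul, coe_inv, mul_inv_eq_iff_eq_mul, _root_.zpow_neg_one, coe_inv, ← map_inv]
      exact Subtype.ext (by
        change (_ * _ : Matrix (Fin 2) (Fin 2) K) = _ * _; simp [coe_sl, coe_dgHom])))
    (Subtype.ext (by
      rw [SubgroupClass.coe_zpow, ← map_zpow, show (2 : ℤ) ^ (t + 2) = (2 ^ (t + 2) : ℕ) by simp,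
        zpow_natCast, hc, SubgroupClass.coe_pow, sq]
      exact Subtype.ext (by
        change (_ * _ : Matrix (Fin 2) (Fin 2) K) = _; simp [coe_sl, coe_dgHom])))
  obtain ⟨T, hT⟩ := H.isPGroup.exists_le_sylow
  obtain rfl : S = T := eq_of_le_of_card_ge hT (by
    obtain ⟨e, he⟩ := IsPGroup.iff_card.1 T.2
    have h4 := (card_subgroup_dvd_card (T : Subgroup (pmFix (twHom σ 1)))).trans
      (card_subgroup_dvd_card (pmFix (twHom σ 1)))
    rw [card_sl hk, he] at h4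
    rw [he, H.card]
    exact Nat.le_of_dvd (by positivity) ((Nat.Coprime.pow_left e
      (Nat.coprime_two_left.2 (hodd.mul ⟨k, rfl⟩))).dvd_of_dvd_mul_right h4))
  replace H : Mx (T : Subgroup _) (t + 2) (-1) (hh _) r s := Mc.mxQ (by simpa [hh] using H)
  have h5 : OddAut (H.sub 2 0) := by
    refine q_odd H (by omega) ?_
    have hu : twHom σ 1 (sl 1 1 0 1 (by simp)) = sl 1 1 0 1 (by simp) :=
      Subtype.ext (by simp [coe_twHom, coe_sl])
    have hl : twHom σ 1 (sl 1 0 (-1) 1 (by simp)) = sl 1 0 (-1) 1 (by simp) :=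
      Subtype.ext (by simp [coe_twHom, coe_sl])
    have hu' := odd_mem_pResidual (g := (⟨_, Or.inl hu⟩ : pmFix (twHom σ 1))) (hqo.of_dvd_nat
      (orderOf_dvd_of_pow_eq_one (Subtype.ext (by
        rw [SubgroupClass.coe_pow, sl_up_pow]
        exact Subtype.ext (by simp [coe_sl, hq0, one_fin_two])))))
    have hl' := odd_mem_pResidual (g := (⟨_, Or.inl hl⟩ : pmFix (twHom σ 1))) (hqo.of_dvd_nat
      (orderOf_dvd_of_pow_eq_one (Subtype.ext (by
        rw [SubgroupClass.coe_pow, sl_low_pow]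
        exact Subtype.ext (by simp [coe_sl, hq0, one_fin_two])))))
    convert mul_mem (mul_mem hu' hl') hu'
    rw [h3]
    exact Subtype.ext (Subtype.ext (by
      change _ = (_ * _ * _ : Matrix (Fin 2) (Fin 2) K); simp [coe_sl]))
  have h6 : ¬ OddAut (H.sub 2 1) := fun h6 => by
    have h7 : pResidual 2 (pmFix (twHom σ 1)) ≤
        ((twHom σ 1).eqLocus (MonoidHom.id _)).subgroupOf _ := (closure_le _).2 fun g hg => by
      refine g.2.resolve_right fun e => neg_ne_sl h0 1 ?_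
      have := congrArg (· ^ orderOf g) e
      rwa [← map_pow, (Nat.coprime_two_right.1 hg).neg_pow, ← SubgroupClass.coe_pow,
        pow_orderOf_eq_one, coe_one, map_one, eq_comm] at this
    have h8 : twHom σ 1 (s 1) = s 1 := h7 (H.max_le_pResidual (e := 1) (by omega)
      (by rwa [pow_one]) (H.s_mem_sub_self _ 1))
    rw [← add_zero (1 : R2 _), ← H.rs, h3, show r 1 = _ by simpa using h2 1] at h8
    change twHom σ 1 (dgHom K c * sl 0 1 (-1) 0 (by simp)) =
      dgHom K c * sl 0 1 (-1) 0 (by simp) at h8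
    rw [map_mul, hw, hd, neg_mul] at h8
    exact neg_ne_sl h0 _ h8
  refine ⟨_, inferInstance, inferInstance, T, r, s, H, fun j => ?_⟩
  obtain ⟨y, rfl | rfl⟩ := r2_even_or_odd j
  · exact iff_of_true (by rwa [← zero_add (2 * y), H.oddAut_even]) ⟨y, rfl⟩
  · exact iff_of_false (by rwa [add_comm (2 * y) 1, H.oddAut_even]) fun ⟨z, hz⟩ => even_ne_odd z y hz.symm

/-- The extension `SL₂(q).2` inside `SL₂(q²)`. -/
theorem exists_half_q {t : ℕ} (ht : 2 ≤ t) : ∃ (G : Type) (_ : Group G) (_ : Finite G)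
    (T : Sylow 2 G) (r s : R2 t → G) (H : Mx (T : Subgroup G) t (-1) (hh t) r s),
    ∀ j, OddAut (H.sub 2 j) ↔ ∃ y, j = 2 * y := by
  obtain ⟨t, rfl⟩ : ∃ t', t = t' + 2 := ⟨t - 2, by omega⟩
  obtain ⟨q, m, hq, h⟩ := exists_prime_one (e := t + 2) (by omega)
  have := Fact.mk hq
  let _ := Fintype.ofFinite (GaloisField q 2)
  have hK : Fintype.card (GaloisField q 2) = q ^ 2 := by
    rw [← Nat.card_eq_fintype_card, GaloisField.card q 2 two_ne_zero]
  obtain ⟨n, hn⟩ := sq_sub_one_of_one h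
  rw [← hK] at hn
  obtain ⟨k, hk⟩ := sq_sub_one_of_one hn
  obtain ⟨c, ho, hc⟩ := exists_unit hn
  let σ : RingAut (GaloisField q 2) := frobeniusEquiv _ q
  have h1 : σ c = -c := by
    change (c : GaloisField q 2) ^ q = _
    rw [← Units.val_pow_eq_pow_val, congrArg (c ^ ·) h]
    simp only [pow_succ c, pow_mul, hc, Odd.neg_one_pow ⟨m, rfl⟩, neg_one_mul, Units.val_neg]
  exact half_q_aux (odd_of_one hn) hk ho hc h1 ⟨2 ^ (t + 1) * (2 * m + 1), by rw [h]; ring⟩
    (CharP.cast_eq_zero _ q)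

variable {Ω : Type u} [Group Ω] {S : Subgroup Ω} {F : FusionSystem S}

theorem real_of_sub {G : Type} [Group G] [Finite G] {T : Sylow 2 G} {C : Subgroup G}
    (hTC : (T : Subgroup G) ≤ C) {E : FusionSystem (T : Subgroup G)} {θ : Ω → G} {η : G → Ω}
    (h : F.IsIsoVia E θ η) (e : E = fusionSystemOfSubgroup C T hTC) (hS : IsPGroup 2 S) :
    F.IsRealizable 2 := by
  have h1 := h.realizes (e ▸ realizes_ofSubgroup)
  refine RealizedIn.isRealizable (G := C) ⟨_, h1.toSub, ?_⟩ hS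
  rw [h1.img_toSub, h.img_top]
  exact (T.subtype hTC).not_dvd_index

variable [Finite Ω] {t : ℕ}

theorem real_of_normal (hF : F.IsSaturated 2) (hS : IsPGroup 2 S)
    (h : ∃ Q, F.IsNormal Q ∧ F.IsCentric Q) : F.IsRealizable 2 := by
  obtain ⟨G, _, ι, h⟩ := IsConstrained.exists_isModel ⟨hF, h⟩ hS
  exact ⟨G, inferInstance, h.1, ι, h.2.1, h.2.2.1⟩

theorem Concl.real (h : Concl F) (hF : F.IsSaturated 2) (hS : IsPGroup 2 S) :
    F.IsRealizable 2 := by
  rcases h with h | ⟨G, _, _, h, -⟩ | ⟨K, _, _, -, ⟨-, h⟩ | h⟩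
  exacts [real_of_normal hF hS h, h.isRealizable hS, h.isRealizable hS, h.isRealizable hS]

theorem oddA_of_essential (hF : F.IsSaturated 2) (hS : IsPGroup 2 S) {E : Subgroup Ω}
    (h : F.IsEssential 2 E) : OddA F E := fun h' => not_essential_of_isPGroup hF hS h' h

section
variable {k m : R2 t} {r s : R2 t → Ω}

theorem mx_real_of_not (H : Mx S t k m r s) (hF : F.IsSaturated 2)
    (h1 : ∀ j, s j * s j = 1 → ¬ OddA F (H.sub 1 j))
    (h2 : ∀ j, s j * s j = r (hh t) → H.sub 2 j = S ∨ ¬ OddA F (H.sub 2 j)) :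
    F.IsRealizable 2 := by
  refine real_of_normal hF H.isPGroup ⟨S, (hF.isNormal_top_iff H.isPGroup).2 fun R hR => ?_,
    F.isCentric_top⟩
  have ho := oddA_of_essential hF H.isPGroup hR
  rcases H.classify hR.le ho.not_isPGroup with ⟨j, hj, rfl⟩ | ⟨j, hj, -, rfl⟩
  · exact h1 j hj ho
  · exact (h2 j hj).elim (hF.lt_of_isEssential H.isPGroup hR).ne fun h => h ho

theorem klein_moves (H : Mx S t k m r s) {j : R2 t} (hj : s j * s j = 1)
    (h : OddA F (H.sub 1 j)) : ∃ α ∈ F.autGroup (H.sub 1 j), totA α (r (hh t)) ≠ r (hh t) := by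
  obtain ⟨α, hα, ho, h1⟩ := exists_odd_of_not_isPGroup h
  have hz := H.z_mem_sub 1 j
  have := H.isKleinFour_sub hj
  refine ⟨α, hα, fun e => h1 (eq_one_of_fix_index_two ho (A := zpowers ⟨_, hz⟩)
    ((H.sub_isPGroup 1 j).to_subgroup _) ?_ ?_)⟩
  · have := (zpowers (⟨_, hz⟩ : H.sub 1 j)).index_mul_card
    rw [Nat.card_zpowers, orderOf_mk, H.orderOf_z, IsKleinFour.card_four] at this
    exact dvd_of_eq (by omega)
  · rintro _ ⟨i, rfl⟩
    beta_reduce
    rw [map_zpow]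
    congr 1
    exact Subtype.ext ((totA_apply _ hz).symm.trans e)

theorem center_eq_bot (H : Mx S t k m r s) (ht : 1 ≤ t) {j : R2 t} (hj : s j * s j = 1)
    (h : OddA F (H.sub 1 j)) : F.center = ⊥ := eq_bot_iff.2 fun x hx => by
  obtain ⟨α, hα, e⟩ := klein_moves H hj h
  have h1 := F.center_le_centralizerIn hx
  rcases (H.mem_center_iff ht h1.1).1 h1.2 with rfl | rfl
  · exact one_mem _
  · exact absurd (F.isCentral_center.fix (mor_totA (H.sub_le _ _) hα) (H.z_mem_sub 1 j) hx) e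

theorem mx_two_classes (H : Mx S t k m r s) (hF : F.IsSaturated 2) {E₁ E₂ E₃ : Subgroup Ω}
    (h₁ : F.IsEssential 2 E₁) (h₂ : F.IsEssential 2 E₂) (h₃ : F.IsEssential 2 E₃) :
    F.IsConj E₁ E₂ ∨ F.IsConj E₁ E₃ ∨ F.IsConj E₂ E₃ := by
  classical
  have k1 : ∀ {E}, F.IsEssential 2 E → ∃ j, E = H.sub (if s j * s j = 1 then 1 else 2) j :=
    fun h => by
      rcases H.classify h.le (oddA_of_essential hF H.isPGroup h).not_isPGroup with
        ⟨j, hj, rfl⟩ | ⟨j, hj, -, rfl⟩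
      · exact ⟨j, by rw [if_pos hj]⟩
      · exact ⟨j, by rw [if_neg (hj ▸ H.z_ne_one)]⟩
  have k2 : ∀ i j y, j = i + 2 * y → F.IsConj (H.sub (if s i * s i = 1 then 1 else 2) i)
      (H.sub (if s j * s j = 1 then 1 else 2) j) := by
    rintro i _ y rfl
    obtain ⟨g, hg, e⟩ := H.exists_cj_sub (if s i * s i = 1 then 1 else 2) i y
    rw [H.sq_even, ← e]
    exact F.isConj_map_conj (H.sub_le _ _) hg
  obtain ⟨a, rfl⟩ := k1 h₁
  obtain ⟨b, rfl⟩ := k1 h₂
  obtain ⟨c, rfl⟩ := k1 h₃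
  obtain ⟨x, hx | hx⟩ := r2_even_or_odd (b - a)
  · exact Or.inl (k2 a b x (by linear_combination hx))
  obtain ⟨y, hy | hy⟩ := r2_even_or_odd (c - a)
  · exact Or.inr (Or.inl (k2 a c y (by linear_combination hy)))
  · exact Or.inr (Or.inr (k2 b c (y - x) (by linear_combination hy - hx)))

end

theorem real_d {r s : R2 t → Ω} (H : Mx S t (-1) 0 r s) (ht : 1 ≤ t) (hF : F.IsSaturated 2) :
    F.IsRealizable 2 := by
  by_cases h : ∃ j, OddA F (H.sub 1 j)
  · obtain ⟨j, h⟩ := h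
    exact (concl_d H ht hF (center_eq_bot H ht (H.d_sq j) h)).real hF H.isPGroup
  · exact mx_real_of_not H hF (fun j _ h' => h ⟨j, h'⟩)
      fun j e => absurd (e.symm.trans (H.d_sq j)) H.z_ne_one

theorem real_q {r s : R2 t → Ω} (H : Mx S t (-1) (hh t) r s) (ht : 1 ≤ t)
    (hF : F.IsSaturated 2) : F.IsRealizable 2 := by
  have hq : ∀ {G : Type} [Group G] {S : Subgroup G} {r s : R2 t → G}
      (H : Mx S t (-1) (hh t) r s) j, s j * s j ≠ 1 := fun H j e =>
    H.z_ne_one ((q_sq H j).symm.trans e)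
  have h0 : ∀ j, s j * s j = 1 → ¬ OddA F (H.sub 1 j) := fun j e =>
    absurd ((q_sq H j).symm.trans e) H.z_ne_one
  obtain rfl | ht := ht.eq_or_lt
  · exact mx_real_of_not H hF h0 fun j _ => Or.inl (H.sub_hh j)
  by_cases h : ∀ j, OddA F (H.sub 2 j)
  · obtain ⟨K, _, _, m, hK⟩ := exists_field_one (e := t + 1) (by omega)
    obtain ⟨T⟩ : Nonempty (Sylow 2 (SpecialLinearGroup (Fin 2) K)) := inferInstance
    obtain ⟨r', s', H'⟩ := sl_mx ht.le hK T
    obtain ⟨t, rfl⟩ : ∃ t', t = t' + 1 := ⟨t - 1, by omega⟩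
    exact (realizedIn_of (mx_realizes H H' ht.le (fun _ _ => ht) hF
      (fun j hj => absurd hj (hq H' j)) fun j _ => iff_of_true (h j) (q_odd H' ht
        (pResidual_eq_top_of_perfect (Cl.sl_commutator_eq_top (ι := Fin 2)
          (Or.inr (exists_sq_ne_one hK))) ▸ mem_top _)))).isRealizable H.isPGroup
  by_cases h' : ∃ j, OddA F (H.sub 2 j)
  · obtain ⟨s, H, h⟩ := q_norm H (OddA F) (fun j y => oddA_even H y) h' h
    obtain ⟨G, _, _, T, r', s', H', h'⟩ := exists_half_q ht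
    exact (realizedIn_of (mx_realizes H H' ht.le (fun _ _ => ht) hF
      (fun j hj => absurd hj (hq H' j)) fun j _ => (h j).trans (h' j).symm)).isRealizable H.isPGroup
  · exact mx_real_of_not H hF h0 fun j _ => Or.inr fun h => h' ⟨j, h⟩

theorem real_qd {r s : R2 t → Ω} (H : Mx S t (hh t - 1) 0 r s) (ht : 2 ≤ t)
    (hF : F.IsSaturated 2) : F.IsRealizable 2 := by
  by_cases h0 : ∃ j, s j * s j = 1 ∧ OddA F (H.sub 1 j)
  · obtain ⟨j, hj, h⟩ := h0
    exact (concl_qd H ht hF (center_eq_bot H (by omega) hj h)).real hF H.isPGroup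
  push Not at h0
  by_cases h : OddA F (H.sub 2 1)
  swap
  · refine mx_real_of_not H hF h0 fun j hj => Or.inr ?_
    obtain ⟨y, rfl⟩ := H.qd_sq_z.1 hj
    rwa [oddA_even]
  obtain ⟨K, _, _, m, hK⟩ := exists_field_neg (e := t) (by omega)
  obtain ⟨T, r', s', H'⟩ := psl3_qd ht hK
  obtain ⟨-, h2⟩ := (H'.qd_pResidual_eq_top_iff ht).1
    (pResidual_eq_top_of_perfect (Cl.psl_commutator_eq_top (Or.inl (by simp))))
  have hTC : (T : Subgroup _) ≤ centralizer {r' (hh t)} := fun x hx =>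
    mem_centralizer_singleton_iff.2 (H'.comm_z hx)
  obtain ⟨θ, η, E, hi, e1, e2⟩ := mc_coord F H.toMc H'.toMc
  have key : ∀ c j, OddA E (H'.sub c j) ↔ OddA F (H.sub c j) := fun c j => by
    rw [← oddA_iso hi (H.sub_le c j), img_eq_of hi (H.sub_le c j) (H'.sub_le c j) fun x hx => ?_]
    obtain ⟨i, rfl | rfl⟩ := H.cases hx
    · rw [e1, H.r_mem_sub, H'.r_mem_sub]
    · rw [e2, H.s_mem_sub, H'.s_mem_sub]
  refine real_of_sub hTC hi (le_antisymm'
    (mx_le H' (by omega) (fun _ _ => ht) (hi.isSaturated hF H.isPGroup) (fun j hj ho => ?_)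
      fun j hj _ => ?_)
    (mx_le H' (by omega) (fun _ _ => ht) (isSaturated_ofSubgroup T.2 (T.subtype hTC).not_dvd_index)
      (fun j hj ho => ?_) fun j hj _ => ?_)) H.isPGroup
  · exact absurd ((key _ _).1 ho) (h0 j (H.qd_sq_one.2 (H'.qd_sq_one.1 hj)))
  · have h3 : OddA (groupFusionSystem (T : Subgroup _)) (H'.sub 2 j) := by
      obtain ⟨y, rfl⟩ := H'.qd_sq_z.1 hj
      rwa [oddA_group (H'.sub_le _ _), H'.oddAut_even]
    rw [OddA, autGroup_group (H'.sub_le _ _)] at h3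
    rw [OddA, autGroup_ofSubgroup (H'.sub_le _ _)]
    refine fun h4 => h3 (h4.to_le fun α hα => ?_)
    obtain ⟨g, hg, rfl⟩ := mem_autInducedBy_iff_cAut.1 hα
    exact cAut_mem_autInducedBy ⟨mem_centralizer_singleton_iff.2
      (mul_inv_eq_iff_eq_mul.1 (H'.conj_z_of_normalizer_q hj hg.2)), hg.2⟩
  · obtain ⟨α, hα, e⟩ := klein_moves H' hj ho
    rw [autGroup_ofSubgroup (H'.sub_le _ _)] at hα
    obtain ⟨g, hg, rfl⟩ := mem_autInducedBy_iff_cAut.1 hα
    exact absurd (by rw [totA_cAut hg.2 (H'.z_mem_sub _ _), mem_centralizer_singleton_iff.1 hg.1,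
      mul_inv_cancel_right]) e
  · obtain ⟨y, rfl⟩ := H'.qd_sq_z.1 hj
    rwa [key, oddA_even]

theorem wr_le' {F' : FusionSystem S} {u w : R2 t → R2 t → Ω} (H : Wr S t u w)
    (hF : F.IsSaturated 2) (h : ¬ OddA F H.base) (hV : OddA F' (H.V 0)) : F ≤ F' := by
  refine le_of_oddA hF H.isPGroup fun R hc hA ho => ?_
  rcases wr_cases H hc ho with rfl | ⟨j, rfl⟩
  exacts [absurd ho h, wr_V_le H hA ((oddA_V H j).2 hV)]

theorem real_wr {u w : R2 t → R2 t → Ω} (H : Wr S t u w) (hF : F.IsSaturated 2) :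
    F.IsRealizable 2 := by
  by_cases h : OddA F (H.V 0)
  swap
  · exact real_of_normal hF H.isPGroup ⟨_, wr_normal H hF h⟩
  obtain ⟨K, _, _, m, hK⟩ := exists_field_one (e := t + 1) (by omega)
  obtain ⟨T, u', w', H'⟩ := psl3_wr H.ht hK
  have hG := pResidual_eq_top_of_perfect
    (Cl.psl_commutator_eq_top (ι := Fin 3) (F := K) (Or.inl (by simp)))
  by_cases h1 : OddA F H.base
  · exact (realizedIn_of (wr_realizes H H' hF h1 h hG)).isRealizable H.isPGroup
  have hTC : (T : Subgroup _) ≤ centralizer {u' 1 1} := fun x hx =>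
    mem_centralizer_singleton_iff.2 (H'.comm_diag hx 1)
  obtain ⟨θ, η, E, hi, e⟩ := exists_coord F (wr_inj H).1 (wr_inj H').1 (wr_inj H).2 (wr_inj H').2
    (by
      rintro (i | i) (j | j)
      exacts [⟨.inl (_, _), H.uu _ _ _ _, H'.uu _ _ _ _⟩, ⟨.inr (_, _), H.uw _ _ _ _, H'.uw _ _ _ _⟩,
        ⟨.inr (_, _), H.wu _ _ _ _, H'.wu _ _ _ _⟩, ⟨.inl (_, _), H.ww _ _ _ _, H'.ww _ _ _ _⟩])
  have e1 : ∀ a b, θ (u a b) = u' a b := fun a b => e (.inl (a, b))
  have e2 : ∀ a b, θ (w a b) = w' a b := fun a b => e (.inr (a, b))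
  have hs := isSaturated_ofSubgroup (hTH := hTC) T.2 (T.subtype hTC).not_dvd_index
  refine real_of_sub hTC hi (le_antisymm' (wr_le' H' (hi.isSaturated hF H.isPGroup) ?_ ?_)
    (wr_le' H' hs (fun h2 => ?_) ?_)) H.isPGroup
  · rwa [← oddA_iso hi H.base_le, img_eq_of hi H.base_le H'.base_le fun x hx => ?_] at h1
    obtain ⟨a, b, rfl | rfl⟩ := H.cases hx
    · rw [e1]; exact iff_of_true (H.u_mem_base _ _) (H'.u_mem_base _ _)
    · rw [e2]; exact iff_of_false (H.w_notMem_base _ _) (H'.w_notMem_base _ _)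
  · obtain ⟨α, hα, ho, h3⟩ := exists_odd_of_not_isPGroup
      ((oddA_group (H'.V_le 0)).2 (H'.pResidual_eq_top_iff.1 hG).2)
    refine not_isPGroup_of_odd ?_ ho h3
    rw [autGroup_group (H'.V_le _)] at hα
    rw [autGroup_ofSubgroup (H'.V_le _)]
    obtain ⟨g, hg, rfl⟩ := mem_autInducedBy_iff_cAut.1 hα
    have := wr_fix_Z H' ho
    rw [totA_cAut hg.2 (H'.Z_le_sub _ _ (mem_zpowers _))] at this
    exact cAut_mem_autInducedBy ⟨mem_centralizer_singleton_iff.2 (mul_inv_eq_iff_eq_mul.1 this), hg.2⟩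
  · obtain ⟨u'', w'', H'', ⟨f, hf, e⟩, -⟩ := exists_std H' hs h2
    obtain ⟨-, -, g, hg, e'⟩ := mor_ofSubgroup_iff.1 hf
    have h3 : u'' 1 1 ∈ zpowers (u' 1 1) := H'.center_eq ▸ H''.center_eq.ge (mem_zpowers _)
    have h4 := e 1 1
    rw [e' _ (H''.u_mem_base 1 1), conj_eq_of_mem_centralizer (P := zpowers (u' 1 1))
      (le_centralizer_iff.1 (zpowers_le.2 fun x hx => hx _ rfl |>.symm) hg) h3, H''.u_eq] at h4
    exact r2_one_ne_zero (h4.2.trans (sub_self _))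
  · rwa [← oddA_iso hi (H.V_le 0), img_eq_of hi (H.V_le 0) (H'.V_le 0) fun x hx => ?_] at h
    obtain ⟨a, b, rfl | rfl⟩ := H.cases hx
    · rw [e1]; exact H.u_mem_sub.trans H'.u_mem_sub.symm
    · rw [e2]; exact H.w_mem_sub.trans H'.w_mem_sub.symm

theorem wr_two_classes {u w : R2 t → R2 t → Ω} (H : Wr S t u w) (hF : F.IsSaturated 2)
    {E₁ E₂ E₃ : Subgroup Ω}
    (h₁ : F.IsEssential 2 E₁) (h₂ : F.IsEssential 2 E₂) (h₃ : F.IsEssential 2 E₃) :
    F.IsConj E₁ E₂ ∨ F.IsConj E₁ E₃ ∨ F.IsConj E₂ E₃ := by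
  have k1 : ∀ {E}, F.IsEssential 2 E → E = H.base ∨ ∃ j, E = H.V j := fun h =>
    wr_cases H h.isCentric (oddA_of_essential hF H.isPGroup h)
  have k2 : ∀ i j, F.IsConj (H.V i) (H.V j) := fun i j => by
    obtain ⟨g, hg, e⟩ := H.exists_cj_V i j
    rw [← e]
    exact F.isConj_map_conj (H.V_le _) hg
  have k3 := FusionSystem.IsConj.refl F H.base_le
  rcases k1 h₁ with rfl | ⟨a, rfl⟩ <;> rcases k1 h₂ with e | ⟨b, e⟩ <;>
    rcases k1 h₃ with e' | ⟨c, e'⟩ <;> rw [e, e'] <;> simp only [k2, k3, true_or, or_true]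

end Cfsg.Agent.Fus.MG
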