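import Mathlib
import Cfsg.Agent.Fus.Transfer

/-!
# The transfer argument in Yoshida's theorem for fusion systems
-/

set_option autoImplicit false

namespace Cfsg.FusionSystem

open Cfsg.Agent.Fus Cfsg.Agent MulAction Subgroup

universe u

variable {Ω : Type u} [Group Ω] {S : Subgroup Ω} {F : FusionSystem S} {p : ℕ}
  [Finite S] [Fact p.Prime]

theorem CharData.exists_norm_notMem_frattini {J : Type u} [MulAction S J] [Fintype J]
    (D : F.CharData p J) (hS : IsPGroup p S) {A : Type*} [CommGroup A] (hA : ∀ a : A, a ^ p = 1)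
    (μ : S →* A) (hμ : ∃ u, μ u ≠ 1) (htr : ∀ u, D.tr μ u = 1)
    (hinv : ∀ f, F.Mor S f → ∀ u v : S, (v : Ω) = f u → μ v = μ u) :
    ∃ M : Subgroup S, M.index = p ∧ ∃ x ∈ M, ∃ y ∉ M,
      ((List.range p).map fun i => (y ^ i)⁻¹ * x * y ^ i).prod ∉ (frattini M).map M.subtype := by
  classical
  have hp : p.Prime := Fact.out
  obtain ⟨u, hu, hmin⟩ : ∃ u, μ u ≠ 1 ∧ ∀ v, orderOf v < orderOf u → μ v = 1 := by
    obtain ⟨u, hu⟩ := hμ
    obtain ⟨u, hu, h⟩ := (measure (orderOf : S → ℕ)).wf.has_min {u | μ u ≠ 1} ⟨u, hu⟩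
    exact ⟨u, hu, fun v hv => by_contra fun h' => h v h' hv⟩
  -- the fixed points
  let s₀ : Finset J := Finset.univ.filter fun j => ∀ g : S, g • j = j
  have h0 : ∏ j ∈ s₀, μ (D.t u j) = μ u ^ s₀.card := by
    rw [← Finset.prod_const]
    refine Finset.prod_congr rfl fun j hj => ?_
    obtain ⟨f, hf, e⟩ := D.gen j
    have hj' := (Finset.mem_filter.1 hj).2
    exact hinv f (hf.mono fun x hx => ⟨⟨x, hx⟩, hj' _, rfl⟩) u _ (e u (hj' u))
  have h1 : ¬ p ∣ s₀.card := by
    have := hS.card_modEq_card_fixedPoints J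
    have e : Nat.card (MulAction.fixedPoints S J) = s₀.card := by
      rw [Nat.card_eq_fintype_card, Fintype.card_subtype]
      congr 1
    rw [e] at this
    exact fun h => D.not_dvd ((this.dvd_iff dvd_rfl).2 h)
  have h2 : ∏ j ∈ Finset.univ.filter (fun j => ¬ ∀ g : S, g • j = j), μ (D.t u j) ≠ 1 := by
    intro h
    have := htr u
    rw [D.tr_apply, ← Finset.prod_filter_mul_prod_filter_not Finset.univ
      (fun j => ∀ g : S, g • j = j), h, mul_one, h0] at this
    exact hu (eq_one_of_pow_eq_one_of_not_dvd ⟨1, by rw [pow_one, hA]⟩ h1 this)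
  obtain ⟨j₀, hj₀, h3⟩ : ∃ j₀ : J, (¬ ∀ g : S, g • j₀ = j₀) ∧
      ∏ j ∈ Finset.univ.filter (fun j => j ∈ orbit S j₀), μ (D.t u j) ≠ 1 := by
    by_contra hc
    push Not at hc
    refine h2 (Finset.prod_cancels_of_partition_cancels (orbitRel S J) fun j hj => ?_)
    have hj' := (Finset.mem_filter.1 hj).2
    rw [← hc j (not_forall.1 hj')]
    refine Finset.prod_congr ?_ fun _ _ => rfl
    ext a
    simp only [Finset.mem_filter, Finset.mem_univ, true_and, orbitRel_apply, and_iff_right_iff_imp]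
    rintro ⟨g, rfl⟩ h
    refine hj' fun k => ?_
    have := h (g * k * g⁻¹)
    simpa [mul_smul] using this
  obtain ⟨M, hM, hi⟩ := GT.PG.exists_index_eq_prime_of_ne_top hS (H := stabilizer S j₀)
    fun h => hj₀ fun g => (h.ge (mem_top g) :)
  have hMn := GT.PG.normal_of_index_prime hS hi
  have hstab : ∀ j ∈ orbit S j₀, ∀ g : S, g • j = j → g ∈ M := by
    rintro _ ⟨k, rfl⟩ g hg
    have : k⁻¹ * g * k ∈ M := hM (by
      rw [mem_stabilizer_iff, mul_smul, mul_smul, inv_smul_eq_iff]; exact hg)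
    simpa [mul_assoc] using hMn.conj_mem _ this k
  have hdvd : ∀ g : S, g ∉ M → ∀ k : ℕ, g ^ k ∈ M → p ∣ k := by
    intro g hg k hk
    by_contra hpk
    refine hg ((QuotientGroup.eq_one_iff g).1 (eq_one_of_pow_eq_one_of_not_dvd ⟨1, ?_⟩ hpk ?_))
    · rw [pow_one, ← QuotientGroup.mk_pow, QuotientGroup.eq_one_iff]
      exact GT.PG.pow_mem_of_index_prime hS hi g
    · rw [← QuotientGroup.mk_pow, QuotientGroup.eq_one_iff]; exact hk
  have huM : u ∈ M := by
    by_contra huM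
    refine h3 ((D.prod_eq_pow μ u _ (fun j hj => ?_) 1 fun j hj k hk => ?_).trans (one_pow _))
    · exact Finset.mem_filter.2 ⟨Finset.mem_univ _,
        mem_orbit_of_mem_orbit u (Finset.mem_filter.1 hj).2⟩
    · rw [one_pow]
      refine hmin _ ?_
      rw [D.orderOf_t hk]
      obtain ⟨m, rfl⟩ := hdvd u huM k (hstab j (Finset.mem_filter.1 hj).2 _ hk)
      obtain ⟨n, hn⟩ := (IsPGroup.iff_orderOf.1 hS) u
      have hn0 : n ≠ 0 := by
        rintro rfl
        rw [pow_zero, orderOf_eq_one_iff] at hn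
        exact hu (by rw [hn, map_one])
      have : orderOf (u ^ (p * m)) ∣ p ^ (n - 1) := by
        refine orderOf_dvd_of_pow_eq_one ?_
        rw [← pow_mul, mul_right_comm, ← pow_succ', Nat.sub_add_cancel (Nat.pos_of_ne_zero hn0),
          ← hn, pow_mul, pow_orderOf_eq_one, one_pow]
      rw [hn]
      exact (Nat.le_of_dvd (pow_pos hp.pos _) this).trans_lt
        (Nat.pow_lt_pow_right hp.one_lt (Nat.sub_one_lt hn0))
  obtain ⟨y, hy⟩ : ∃ y, y ∉ M := by
    by_contra h
    push Not at h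
    rw [(eq_top_iff' M).2 h, index_top] at hi
    exact hp.one_lt.ne hi
  let s₁ : Finset J := Finset.univ.filter fun j => j ∈ orbit M j₀
  have hs₁ : ∀ {j}, j ∈ s₁ ↔ ∃ m ∈ M, m • j₀ = j := by
    intro j
    simp only [s₁, Finset.mem_filter, Finset.mem_univ, true_and]
    exact ⟨fun ⟨m, e⟩ => ⟨m, m.2, e⟩, fun ⟨m, hm, e⟩ => ⟨⟨m, hm⟩, e⟩⟩
  have hperm : ∀ m ∈ M, ∀ w : J → A, ∏ j ∈ s₁, w (m • j) = ∏ j ∈ s₁, w j := by
    intro m hm w
    refine Finset.prod_equiv (MulAction.toPerm m) (fun j => ?_) fun _ _ => rfl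
    rw [hs₁, hs₁]
    constructor
    · rintro ⟨k, hk, rfl⟩
      exact ⟨m * k, M.mul_mem hm hk, by simp [mul_smul]⟩
    · rintro ⟨k, hk, e⟩
      refine ⟨m⁻¹ * k, M.mul_mem (M.inv_mem hm) hk, ?_⟩
      rw [mul_smul, e]; simp
  let ν : M →* A := MonoidHom.mk' (fun a => ∏ j ∈ s₁, μ (D.t a j)) fun a b => by
    simp only [Subgroup.coe_mul, D.t_mul, map_mul, Finset.prod_mul_distrib]
    rw [hperm b b.2 fun j => μ (D.t a j)]
  have hconj : ∀ i : ℕ, (y ^ i)⁻¹ * u * y ^ i ∈ M := fun i => by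
    simpa using hMn.conj_mem _ huM (y ^ i)⁻¹
  have hν : ∀ i : ℕ, ν ⟨_, hconj i⟩ = ∏ j ∈ s₁, μ (D.t u (y ^ i • j)) := by
    intro i
    change ∏ j ∈ s₁, μ (D.t ((y ^ i)⁻¹ * u * y ^ i) j) = _
    have e : ∀ j : J, D.t ((y ^ i)⁻¹ * u * y ^ i) j =
        (D.t (y ^ i) (((y ^ i)⁻¹ * u * y ^ i) • j))⁻¹ * D.t u (y ^ i • j) * D.t (y ^ i) j := by
      intro j
      rw [← D.t_inv, D.t_mul, D.t_mul]
      simp [mul_smul]
    simp only [e, map_mul, map_inv, Finset.prod_mul_distrib, Finset.prod_inv_distrib]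
    rw [hperm _ (hconj i) fun j => μ (D.t (y ^ i) j), mul_right_comm, inv_mul_cancel, one_mul]
  have htot : ∏ i ∈ Finset.range p, ν ⟨_, hconj i⟩ =
      ∏ j ∈ Finset.univ.filter (fun j => j ∈ orbit S j₀), μ (D.t u j) := by
    simp only [hν]
    rw [← Finset.prod_product']
    have hlt : ∀ a b : ℕ, a ≤ b → b < p → ∀ m ∈ M, ∀ m' ∈ M, y ^ a • m • j₀ = y ^ b • m' • j₀ →
        a = b := by
      intro a b hab hb m hm m' hm' e
      obtain ⟨c, rfl⟩ := Nat.exists_eq_add_of_le hab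
      rw [pow_add, mul_smul, smul_left_cancel_iff] at e
      have h4 : m⁻¹ * y ^ c * m' ∈ M := hM (by
        rw [mem_stabilizer_iff, mul_smul, mul_smul, inv_smul_eq_iff]; exact e.symm)
      have h5 : y ^ c ∈ M := by
        simpa [mul_assoc] using M.mul_mem (M.mul_mem hm h4) (M.inv_mem hm')
      have := Nat.eq_zero_of_dvd_of_lt (hdvd y hy c h5) (by omega)
      omega
    refine Finset.prod_nbij (fun x => y ^ x.1 • x.2) (fun x hx => ?_) (fun a ha b hb e => ?_)
      (fun j hj => ?_) fun _ _ => rfl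
    · obtain ⟨m, -, e⟩ := hs₁.1 (Finset.mem_product.1 hx).2
      exact Finset.mem_filter.2 ⟨Finset.mem_univ _, ⟨y ^ x.1 * m, by rw [← e]; exact mul_smul _ _ _⟩⟩
    · obtain ⟨ha1, ha2⟩ := Finset.mem_product.1 (Finset.mem_coe.1 ha)
      obtain ⟨hb1, hb2⟩ := Finset.mem_product.1 (Finset.mem_coe.1 hb)
      obtain ⟨m, hm, e1⟩ := hs₁.1 ha2
      obtain ⟨m', hm', e2⟩ := hs₁.1 hb2
      have e' : y ^ a.1 • a.2 = y ^ b.1 • b.2 := e
      have h6 : a.1 = b.1 := by
        rw [← e1, ← e2] at e'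
        rcases le_total a.1 b.1 with h | h
        · exact hlt _ _ h (Finset.mem_range.1 hb1) m hm m' hm' e'
        · exact (hlt _ _ h (Finset.mem_range.1 ha1) m' hm' m hm e'.symm).symm
      rw [h6, smul_left_cancel_iff] at e'
      exact Prod.ext h6 e'
    · obtain ⟨g, rfl⟩ := (Finset.mem_filter.1 (Finset.mem_coe.1 hj)).2
      have hcard : Nat.card (S ⧸ M) = p := hi
      have hy1 : (y : S ⧸ M) ≠ 1 := fun h => hy ((QuotientGroup.eq_one_iff y).1 h)
      have ho : orderOf (y : S ⧸ M) = p := by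
        refine orderOf_eq_prime ?_ hy1
        rw [← hcard, pow_card_eq_one']
      have hg := mem_powers_of_prime_card hcard hy1 (g' := (g : S ⧸ M))
      obtain ⟨n, hn⟩ := hg
      have hn' : ((y ^ (n % p) : S) : S ⧸ M) = g := by
        rw [QuotientGroup.mk_pow, ← ho, pow_mod_orderOf]; exact hn
      refine ⟨(n % p, ((y ^ (n % p))⁻¹ * g) • j₀), Finset.mem_coe.2 (Finset.mem_product.2
        ⟨Finset.mem_range.2 (Nat.mod_lt _ hp.pos), hs₁.2 ⟨_, QuotientGroup.eq.1 hn', rfl⟩⟩), ?_⟩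
      simp [mul_smul]
  refine ⟨M, hi, u, huM, y, hy, ?_⟩
  rintro ⟨w, hw, e⟩
  have h7 : frattini M ≤ ν.ker := GT.PG.frattini_le hp (Abelianization.commutator_subset_ker ν)
    fun y => by rw [MonoidHom.mem_ker, map_pow, hA]
  have h8 : w = ((List.range p).map fun i => (⟨_, hconj i⟩ : M)).prod := by
    refine Subtype.ext (e.trans ?_)
    rw [← Subgroup.subtype_apply, map_list_prod, List.map_map]
    rfl
  have h9 : ν w = 1 := h7 hw
  rw [h8, map_list_prod, List.map_map] at h9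
  exact h3 (htot.symm.trans h9)

/-- If the automorphisms of `S` do not control transfer, some maximal subgroup carries a
nontrivial norm modulo its Frattini subgroup. -/
theorem IsSaturated.exists_norm_notMem_frattini (hF : F.IsSaturated p) (hS : IsPGroup p S)
    {K : Subgroup Ω} (hK : ∀ f, F.Mor S f → ∀ x ∈ S, x⁻¹ * f x ∈ K) (hne : ¬ F.focalSubgroup ≤ K) :
    ∃ M : Subgroup S, M.index = p ∧ ∃ x ∈ M, ∃ y ∉ M,
      ((List.range p).map fun i => (y ^ i)⁻¹ * x * y ^ i).prod ∉ (frattini M).map M.subtype := by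
  obtain ⟨J, _, _, ⟨D⟩⟩ := hF.exists_charData hS
  have := Fintype.ofFinite J
  have hc : commutator S ≤ K.subgroupOf S := commutator_le.2 fun a _ b _ => by
    have := hK _ (F.mor_conj le_rfl b.2) _ (S.inv_mem a.2)
    simpa [mem_subgroupOf, commutatorElement_def, mul_assoc] using this
  have hn : (K.subgroupOf S).Normal := Subgroup.Normal.of_commutator_le _ hc
  let _ : CommGroup (S ⧸ K.subgroupOf S) :=
    { (inferInstance : Group (S ⧸ K.subgroupOf S)) with
      mul_comm := (Subgroup.Normal.quotient_commutative_iff_commutator_le.2 hc).is_comm.comm }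
  let l : S →* S ⧸ K.subgroupOf S := QuotientGroup.mk' _
  let l' : S →* S ⧸ K.subgroupOf S := l ^ Nat.card J / D.tr l
  have hl' : ∀ u, l' u = l u ^ Nat.card J / D.tr l u := fun _ => rfl
  have hinv : ∀ f, F.Mor S f → ∀ u v : S, (v : Ω) = f u → l' v = l' u := by
    intro f hf u v e
    rw [hl', hl', D.tr_stable l hf u.2 e]
    congr 2
    refine (QuotientGroup.eq.2 ?_).symm
    rw [mem_subgroupOf, Subgroup.coe_mul, Subgroup.coe_inv, e]
    exact hK f hf _ u.2
  have htr : ∀ u, D.tr l' u = 1 := fun u => by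
    have := D.tr_eq_pow_of_focal_le _ (D.focal_le_ker_tr l) u
    rw [D.tr_apply] at this ⊢
    simp only [hl', Finset.prod_div_distrib, Finset.prod_pow]
    rw [this, D.tr_apply, div_self']
  have hne' : l'.range ≠ ⊥ := by
    intro h
    refine hne fun x hx => ?_
    obtain ⟨u, hu, rfl⟩ := D.focal_le_ker_tr l hx
    have h1 : l' u = 1 := mem_bot.1 (h.le ⟨u, rfl⟩)
    rw [hl', show D.tr l u = 1 from hu, div_one] at h1
    obtain ⟨k, hk⟩ := hS u
    have := eq_one_of_pow_eq_one_of_not_dvd ⟨k, by rw [← map_pow, hk, map_one]⟩ D.not_dvd h1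
    exact (QuotientGroup.eq_one_iff u).1 this
  have hB : IsPGroup p l'.range := hS.of_surjective _ l'.rangeRestrict_surjective
  have : Nontrivial l'.range := (nontrivial_iff_ne_bot _).2 hne'
  obtain ⟨M, -, hi⟩ := GT.PG.exists_index_eq_prime_of_ne_top hB (H := ⊥) bot_ne_top
  have hcard : Nat.card (l'.range ⧸ M) = p := hi
  refine D.exists_norm_notMem_frattini hS (A := l'.range ⧸ M)
    (fun a => by rw [← hcard, pow_card_eq_one']) ((QuotientGroup.mk' M).comp l'.rangeRestrict)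
    ?_ (fun u => ?_) fun f hf u v e => ?_
  · by_contra h
    push Not at h
    have : M = ⊤ := (eq_top_iff' M).2 fun b => by
      obtain ⟨u, rfl⟩ := l'.rangeRestrict_surjective b
      exact (QuotientGroup.eq_one_iff _).1 (h u)
    rw [this, index_top] at hi
    exact (Fact.out : p.Prime).one_lt.ne hi
  · rw [D.tr_apply]
    simp only [MonoidHom.comp_apply]
    rw [← map_prod]
    have : ∏ j, l'.rangeRestrict (D.t u j) = 1 := Subtype.ext (by
      rw [← Subgroup.subtype_apply, map_prod]; exact htr u)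
    rw [this, map_one]
  · simp only [MonoidHom.comp_apply]
    congr 1
    exact Subtype.ext (hinv f hf u v e)

end Cfsg.FusionSystem
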